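import Mathlib

/-!
# Arithmetic for the kites in degree graphs (helper40)

* `two_pow_sub`, `two_pow_add` : `2 ^ f - 1` and `2 ^ f + 1` as powers of three;
* `two_pow_cases` : `2 ^ f - 1` and `2 ^ f + 1` both prime powers, `f ≥ 2`: `f = 2` or `f = 3`;
* `eq_pow_of_forall` : a number all of whose prime divisors are `x` is a power of `x`.
-/

set_option autoImplicit false

namespace Cfsg.Agent.H40.KiteG

theorem eq_pow_of_forall {N x : ℕ} (hN : N ≠ 0) (h : ∀ r : ℕ, r.Prime → r ∣ N → r = x) : ∃ k, N = x ^ k := by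
  obtain ⟨k, hk⟩ : ∃ k, k = N.factorization x := ⟨_, rfl⟩
  by_cases h1 : N = 1
  · exact ⟨0, by rw [h1, pow_zero]⟩
  obtain ⟨r, hr, hrN⟩ := Nat.exists_prime_and_dvd h1
  have hx : x.Prime := by rw [← h r hr hrN]; exact hr
  exact ⟨N.primeFactorsList.length, Nat.eq_prime_pow_of_unique_prime_dvd hN fun {d} hd hdN => h d hd hdN⟩

/-- powers of `x` differing by `2`, `x` odd -/
theorem pow_add_two {x a b : ℕ} (hx : x.Prime) (hx2 : x ≠ 2) (h : x ^ a + 2 = x ^ b) : a = 0 := by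
  by_contra ha
  have h1 : x ∣ x ^ a := dvd_pow_self x ha
  have hab : b ≠ 0 := by
    rintro rfl
    rw [pow_zero] at h
    omega
  have h2 : x ∣ x ^ a + 2 := by rw [h]; exact dvd_pow_self x hab
  have h3 : x ∣ 2 := (Nat.dvd_add_right h1).1 h2
  exact hx2 ((Nat.prime_dvd_prime_iff_eq hx Nat.prime_two).1 h3)

/-- powers of `2` differing by `2` -/
theorem two_pow_add_two {a b : ℕ} (h : 2 ^ a + 2 = 2 ^ b) : a = 1 := by
  rcases Nat.lt_or_ge a 2 with ha | ha
  · interval_cases a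
    · exfalso
      rcases Nat.lt_or_ge b 2 with hb | hb
      · interval_cases b <;> omega
      · obtain ⟨c, rfl⟩ := Nat.exists_eq_add_of_le hb
        rw [pow_add] at h
        omega
    · rfl
  · exfalso
    obtain ⟨c, rfl⟩ := Nat.exists_eq_add_of_le ha
    rcases Nat.lt_or_ge b 2 with hb | hb
    · have : 0 < 2 ^ c := by positivity
      rw [pow_add] at h
      interval_cases b <;> omega
    · obtain ⟨d, rfl⟩ := Nat.exists_eq_add_of_le hb
      rw [pow_add, pow_add] at h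
      omega

theorem two_pow_sub {f i : ℕ} (hf : 2 ≤ f) (h : 2 ^ f - 1 = 3 ^ i) : f = 2 := by
  have h4 : 4 ≤ 2 ^ f := by
    calc 4 = 2 ^ 2 := by norm_num
      _ ≤ 2 ^ f := Nat.pow_le_pow_right (by norm_num) hf
  have hi : i ≠ 0 := by
    rintro rfl
    rw [pow_zero] at h
    omega
  -- `f` is even
  obtain ⟨g, rfl | rfl⟩ : ∃ g, f = 2 * g ∨ f = 2 * g + 1 := ⟨f / 2, by omega⟩
  · have h5 : 2 ≤ 2 ^ g := by
      rcases Nat.eq_zero_or_pos g with rfl | hg
      · omega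
      · calc 2 = 2 ^ 1 := by norm_num
          _ ≤ 2 ^ g := Nat.pow_le_pow_right (by norm_num) hg
    have h6 : (2 ^ g - 1) * (2 ^ g + 1) = 3 ^ i := by
      rw [← h]
      obtain ⟨c, hc⟩ := Nat.exists_eq_add_of_le h5
      have e : 2 ^ (2 * g) = 2 ^ g * 2 ^ g := by rw [two_mul, pow_add]
      rw [e, hc]
      have e1 : 2 + c - 1 = c + 1 := by omega
      have e2 : (2 + c) * (2 + c) = (c + 1) * (2 + c + 1) + 1 := by ring
      rw [e1, e2]
      omega
    obtain ⟨a, -, ha⟩ := (Nat.dvd_prime_pow Nat.prime_three).1 ((Dvd.intro _ h6) : 2 ^ g - 1 ∣ 3 ^ i)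
    obtain ⟨b, -, hb⟩ := (Nat.dvd_prime_pow Nat.prime_three).1 ((Dvd.intro_left _ h6) : 2 ^ g + 1 ∣ 3 ^ i)
    have h7 : 3 ^ a + 2 = 3 ^ b := by omega
    have h8 := pow_add_two Nat.prime_three (by norm_num) h7
    rw [h8, pow_zero] at ha
    have h9 : 2 ^ g = 2 ^ 1 := by omega
    have := Nat.pow_right_injective (le_refl 2) h9
    omega
  · exfalso
    have h5 : 3 ∣ 2 ^ (2 * g + 1) - 1 := by rw [h]; exact dvd_pow_self 3 hi
    have h6 : 2 ^ (2 * g + 1) % 3 = 2 := by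
      rw [pow_succ, pow_mul, Nat.mul_mod, Nat.pow_mod]
      norm_num
    omega

theorem two_pow_add {f j : ℕ} (hf : 2 ≤ f) (h : 2 ^ f + 1 = 3 ^ j) : f = 3 := by
  rcases Nat.lt_or_ge f 3 with h3 | h3
  · exfalso
    have : f = 2 := by omega
    subst this
    norm_num at h
    rcases Nat.lt_or_ge j 2 with hj | hj
    · interval_cases j <;> omega
    · obtain ⟨c, rfl⟩ := Nat.exists_eq_add_of_le hj
      rw [pow_add] at h
      omega
  -- `j` is even
  have h8 : 8 ∣ 2 ^ f := by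
    calc 8 = 2 ^ 3 := by norm_num
      _ ∣ 2 ^ f := pow_dvd_pow 2 h3
  obtain ⟨k, rfl | rfl⟩ : ∃ k, j = 2 * k ∨ j = 2 * k + 1 := ⟨j / 2, by omega⟩
  · have h5 : 3 ≤ 3 ^ k := by
      rcases Nat.eq_zero_or_pos k with rfl | hk
      · have : 0 < 2 ^ f := by positivity
        rw [mul_zero, pow_zero] at h
        omega
      · calc 3 = 3 ^ 1 := by norm_num
          _ ≤ 3 ^ k := Nat.pow_le_pow_right (by norm_num) hk
    have h6 : (3 ^ k - 1) * (3 ^ k + 1) = 2 ^ f := by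
      have e : 3 ^ (2 * k) = 3 ^ k * 3 ^ k := by rw [two_mul, pow_add]
      rw [e] at h
      obtain ⟨c, hc⟩ := Nat.exists_eq_add_of_le h5
      rw [hc] at h ⊢
      have e1 : 3 + c - 1 = c + 2 := by omega
      have e2 : (3 + c) * (3 + c) = (c + 2) * (3 + c + 1) + 1 := by ring
      rw [e1]
      omega
    obtain ⟨a, -, ha⟩ := (Nat.dvd_prime_pow Nat.prime_two).1 ((Dvd.intro _ h6) : 3 ^ k - 1 ∣ 2 ^ f)
    obtain ⟨b, -, hb⟩ := (Nat.dvd_prime_pow Nat.prime_two).1 ((Dvd.intro_left _ h6) : 3 ^ k + 1 ∣ 2 ^ f)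
    have h7 : 2 ^ a + 2 = 2 ^ b := by omega
    have h9 := two_pow_add_two h7
    rw [h9] at ha
    have h10 : 3 ^ k = 3 := by omega
    rw [h10] at h6
    have h11 : 2 ^ f = 2 ^ 3 := by omega
    exact Nat.pow_right_injective (le_refl 2) h11
  · exfalso
    have h9 : 3 ^ (2 * k + 1) % 8 = 3 := by
      rw [pow_succ, pow_mul, Nat.mul_mod, Nat.pow_mod]
      norm_num
    omega

/-- `2 ^ f - 1` and `2 ^ f + 1` are prime powers, `f ≥ 2`. -/
theorem two_pow_cases {f x s i j : ℕ} (hf : 2 ≤ f) (hx : x.Prime) (hs : s.Prime) (h1 : 2 ^ f - 1 = x ^ i)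
    (h2 : 2 ^ f + 1 = s ^ j) : f = 2 ∨ f = 3 := by
  have h4 : 4 ≤ 2 ^ f := by
    calc 4 = 2 ^ 2 := by norm_num
      _ ≤ 2 ^ f := Nat.pow_le_pow_right (by norm_num) hf
  have h3 : ¬ 3 ∣ 2 ^ f := fun h => by
    have := (Nat.prime_dvd_prime_iff_eq Nat.prime_three Nat.prime_two).1 (Nat.prime_three.dvd_of_dvd_pow h)
    omega
  rcases (by omega : 3 ∣ 2 ^ f - 1 ∨ 3 ∣ 2 ^ f + 1) with h | h
  · left
    have e : 3 = x := (Nat.prime_dvd_prime_iff_eq Nat.prime_three hx).1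
      (Nat.prime_three.dvd_of_dvd_pow (by rwa [h1] at h))
    rw [← e] at h1
    exact two_pow_sub hf h1
  · right
    have e : 3 = s := (Nat.prime_dvd_prime_iff_eq Nat.prime_three hs).1
      (Nat.prime_three.dvd_of_dvd_pow (by rwa [h2] at h))
    rw [← e] at h2
    exact two_pow_add hf h2

/-- `q - 1` and `q + 1` are powers of the same prime. -/
theorem sq_sub_one_cases {q x a b : ℕ} (hq : 2 ≤ q) (hx : x.Prime) (h1 : q - 1 = x ^ a) (h2 : q + 1 = x ^ b) :
    q = 2 ∨ q = 3 := by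
  by_cases hx2 : x = 2
  · subst hx2
    right
    have h3 : 2 ^ a + 2 = 2 ^ b := by omega
    rw [two_pow_add_two h3] at h1
    omega
  · left
    have h3 : x ^ a + 2 = x ^ b := by omega
    rw [pow_add_two hx hx2 h3, pow_zero] at h1
    omega

end Cfsg.Agent.H40.KiteG
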