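import Cfsg.Agent.H670.Reg.Defs
import Cfsg.Agent.H424.DegTools
import Cfsg.Agent.H53.HC.BigFacts

/-!
# Kites in degree graphs: tools (S4919, helper40)

* `Kite.congr` : along an isomorphism;
* `kite_of_four` : four pairwise adjacent vertices;
* `kite_of_card_five` : the primes other than `r` are pairwise adjacent and `|S|` has five prime divisors;
* `kite_of_big`.
-/

set_option autoImplicit false

namespace Cfsg.Agent.H40.KiteG

open Cfsg Cfsg.Agent.H671.H5 Cfsg.Agent.H670.Reg Cfsg.Agent.H53.HC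

universe u v

theorem Kite.congr {S : Type u} [Group S] {S' : Type v} [Group S'] (e : S ≃* S') (h : Kite S') : Kite S := by
  have e1 := H424.DegTools.degreeGraph_congr e
  unfold Kite Adj at h ⊢
  rw [e1]
  exact h

theorem adj_symm {S : Type u} [Group S] {p q : ℕ} (h : Adj p q S) : Adj q p S := SimpleGraph.Adj.symm h

/-- Two primes dividing the degree of one character. -/
theorem adj_of_dvd {S : Type u} [Group S] {r s : ℕ} (hr : r.Prime) (hs : s.Prime) (hrs : r ≠ s) {φ : IrrCharacter S}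
    (h1 : r ∣ charDegree (φ : S → ℂ)) (h2 : s ∣ charDegree (φ : S → ℂ)) : Adj r s S :=
  ⟨hrs, hr, hs, _, ⟨φ, rfl⟩, Nat.Coprime.mul_dvd_of_dvd_of_dvd ((Nat.coprime_primes hr hs).2 hrs) h1 h2⟩

/-- Four pairwise adjacent vertices. -/
theorem kite_of_four {S : Type u} [Group S] {a b c d : ℕ} (hab : Adj a b S) (hac : Adj a c S) (had : Adj a d S)
    (hbc : Adj b c S) (hbd : Adj b d S) (hcd : c ≠ d) : Kite S :=
  Or.inl ⟨a, b, c, d, hcd, hab, hac, hbc, had, hbd⟩

/-- Two triangles with a common edge. -/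
theorem kite_of_edge {S : Type u} [Group S] {a b c d : ℕ} (hab : Adj a b S) (hac : Adj a c S) (hbc : Adj b c S)
    (had : Adj a d S) (hbd : Adj b d S) (hcd : c ≠ d) : Kite S :=
  Or.inl ⟨a, b, c, d, hcd, hab, hac, hbc, had, hbd⟩

/-- A vertex with four neighbours. -/
theorem kite_of_star {S : Type u} [Group S] (u : ℕ) (N : Finset ℕ) (h4 : 4 ≤ N.card) (hN : ∀ x ∈ N, Adj u x S) :
    Kite S := by
  obtain ⟨t, ht, htc⟩ := Finset.exists_subset_card_eq h4
  obtain ⟨a, b, c, d, hab, hac, had, hbc, hbd, hcd, rfl⟩ := Finset.card_eq_four.1 htc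
  refine Or.inr ⟨u, a, b, c, d, hab, hac, had, hbc, hbd, hcd, ?_, ?_, ?_, ?_⟩ <;>
    exact hN _ (ht (by simp))

/-- A clique with four elements. -/
theorem kite_of_clique {S : Type u} [Group S] (N : Finset ℕ) (h4 : 4 ≤ N.card)
    (hN : ∀ x ∈ N, ∀ y ∈ N, x ≠ y → Adj x y S) : Kite S := by
  obtain ⟨t, ht, htc⟩ := Finset.exists_subset_card_eq h4
  obtain ⟨a, b, c, d, hab, hac, had, hbc, hbd, hcd, rfl⟩ := Finset.card_eq_four.1 htc
  have ha : a ∈ N := ht (by simp)
  have hb : b ∈ N := ht (by simp)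
  have hc : c ∈ N := ht (by simp)
  have hd : d ∈ N := ht (by simp)
  exact kite_of_four (hN a ha b hb hab) (hN a ha c hc hac) (hN a ha d hd had) (hN b hb c hc hbc)
    (hN b hb d hd hbd) hcd

/-- The primes other than `r` are pairwise adjacent, `|S|` has five prime divisors. -/
theorem kite_of_np {S : Type u} [Group S] {r : ℕ} (h5 : 5 ≤ (Nat.card S).primeFactors.card)
    (h : ∀ p q : ℕ, p.Prime → q.Prime → p ≠ r → q ≠ r → p ≠ q → p ∣ Nat.card S → q ∣ Nat.card S → Adj p q S) :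
    Kite S := by
  refine kite_of_clique ((Nat.card S).primeFactors.erase r) ?_ ?_
  · have := Finset.pred_card_le_card_erase (s := (Nat.card S).primeFactors) (a := r)
    omega
  · intro x hx y hy hxy
    rw [Finset.mem_erase, Nat.mem_primeFactors] at hx hy
    exact h x y hx.2.1 hy.2.1 hx.1 hy.1 hxy hx.2.2.1 hy.2.2.1

theorem kite_of_big {S : Type u} [Group S] {r : ℕ} (h5 : 5 ≤ (Nat.card S).primeFactors.card) (h : Big r S) :
    Kite S :=
  kite_of_np (r := r) h5 fun _ _ hp hq hpr hqr hpq h1 h2 => h.adj hp hq hpq h1 h2 hpr hqr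

/-- One degree divisible by four primes. -/
theorem kite_of_degree {S : Type u} [Group S] (φ : IrrCharacter S) (N : Finset ℕ) (h4 : 4 ≤ N.card)
    (hN : ∀ x ∈ N, x.Prime ∧ x ∣ charDegree (φ : S → ℂ)) : Kite S :=
  kite_of_clique N h4 fun x hx y hy hxy => adj_of_dvd (hN x hx).1 (hN y hy).1 hxy (hN x hx).2 (hN y hy).2

/-- One degree divisible by four primes. -/
theorem kite_of_primes {S : Type u} [Group S] (φ : IrrCharacter S) {a b c d : ℕ} (ha : a.Prime) (hb : b.Prime)
    (hc : c.Prime) (hd : d.Prime) (hab : a ≠ b) (hac : a ≠ c) (had : a ≠ d) (hbc : b ≠ c) (hbd : b ≠ d)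
    (hcd : c ≠ d) (h1 : a ∣ charDegree (φ : S → ℂ)) (h2 : b ∣ charDegree (φ : S → ℂ))
    (h3 : c ∣ charDegree (φ : S → ℂ)) (h4 : d ∣ charDegree (φ : S → ℂ)) : Kite S :=
  kite_of_four (adj_of_dvd ha hb hab h1 h2) (adj_of_dvd ha hc hac h1 h3) (adj_of_dvd ha hd had h1 h4)
    (adj_of_dvd hb hc hbc h2 h3) (adj_of_dvd hb hd hbd h2 h4) hcd

end Cfsg.Agent.H40.KiteG
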