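import Cfsg.Agent.H40.Kite.Base
import Cfsg.Agent.H477.HC.SpSix
import Cfsg.Agent.H477.HC.Small

/-!
# Kites in the degree graphs of the symplectic and orthogonal groups (S4919, helper40)
-/

set_option autoImplicit false
set_option linter.unusedSectionVars false

namespace Cfsg.Agent.H40.KiteG

open Cfsg Cfsg.Agent.H671.H5 Cfsg.Agent.H670.Reg Cfsg.Agent.H477.HC

universe u

theorem kite_of_Np {S : Type u} [Group S] {p : ℕ} (h5 : 5 ≤ (Nat.card S).primeFactors.card) (h : Np p S) : Kite S :=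
  kite_of_np (r := p) h5 fun _ _ ha hb hap hbp hab h1 h2 => h _ _ ha hb hap hbp hab h1 h2

/-- `PSp_6(3)` -/
theorem kite_sp63 {K : Type} [Field K] [Fintype K] (hK : Fintype.card K = 3) : Kite (PSp 3 K) := by
  obtain ⟨h195, h168⟩ := rsp63 K hK
  refine kite_of_star 3 {2, 5, 7, 13} (by decide) ?_
  intro x hx
  simp only [Finset.mem_insert, Finset.mem_singleton] at hx
  rcases hx with rfl | rfl | rfl | rfl
  · exact adj_of_ch h168 (by norm_num) (by norm_num) (by norm_num) (by norm_num) (by norm_num)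
  · exact adj_of_ch h195 (by norm_num) (by norm_num) (by norm_num) (by norm_num) (by norm_num)
  · exact adj_of_ch h168 (by norm_num) (by norm_num) (by norm_num) (by norm_num) (by norm_num)
  · exact adj_of_ch h195 (by norm_num) (by norm_num) (by norm_num) (by norm_num) (by norm_num)

/-- **`PSp_{2m}(q)`** -/
theorem kite_psp {S : Type u} [Group S] (h : IsPSp S) (h5 : 5 ≤ (Nat.card S).primeFactors.card) : Kite S := by
  obtain ⟨F, _, _, m, hm, h3, ⟨e⟩⟩ := h
  obtain ⟨p, hp⟩ := CharP.exists F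
  have hpr : p.Prime := (CharP.char_is_prime_or_zero F p).resolve_right (CharP.char_ne_zero_of_finite F p)
  have : Fact p.Prime := ⟨hpr⟩
  refine Kite.congr e ?_
  by_cases c63 : m = 3 ∧ Fintype.card F = 3
  · obtain ⟨rfl, hF⟩ := c63
    exact kite_sp63 hF
  rw [Nat.card_congr e.toEquiv] at h5
  exact kite_of_Np h5 (sp_np (K := F) (p := p) hm h3 tsp62 c63)

/-- **`PΩ_{2m+1}(q)`** -/
theorem kite_omega_odd {S : Type u} [Group S] (h : IsPOmegaOdd S) (h5 : 5 ≤ (Nat.card S).primeFactors.card) :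
    Kite S := by
  obtain ⟨F, _, _, m, hm, ho, ⟨e⟩⟩ := h
  obtain ⟨p, hp⟩ := CharP.exists F
  have hpr : p.Prime := (CharP.char_is_prime_or_zero F p).resolve_right (CharP.char_ne_zero_of_finite F p)
  have : Fact p.Prime := ⟨hpr⟩
  have ho' : Odd (Nat.card F) := by rwa [Nat.card_eq_fintype_card]
  rw [Nat.card_congr e.toEquiv] at h5
  exact Kite.congr e (kite_of_Np (p := p) h5 fun r s hr hs hrp hsp hrs hd hd' =>
    np_odd F (p := p) ho' hm hr hs hrp hsp hrs hd hd')

/-- **`PΩ⁺_{2m}(q)`** -/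
theorem kite_omega_plus {S : Type u} [Group S] (h : IsPOmegaPlus S) (h5 : 5 ≤ (Nat.card S).primeFactors.card) :
    Kite S := by
  obtain ⟨F, _, _, m, hm, ⟨e⟩⟩ := h
  obtain ⟨p, hp⟩ := CharP.exists F
  have hpr : p.Prime := (CharP.char_is_prime_or_zero F p).resolve_right (CharP.char_ne_zero_of_finite F p)
  have : Fact p.Prime := ⟨hpr⟩
  rw [Nat.card_congr e.toEquiv] at h5
  exact Kite.congr e (kite_of_Np (p := p) h5 fun r s hr hs hrp hsp hrs hd hd' =>
    np_plus F (p := p) hm hr hs hrp hsp hrs hd hd')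

/-- an odd prime divisor of `q ^ (2 k) + 1` -/
theorem exists_odd_prime {q k : ℕ} (hq : 2 ≤ q) (hk : 0 < k) : ∃ r, r.Prime ∧ r ≠ 2 ∧ r ∣ q ^ (2 * k) + 1 := by
  by_contra hcon
  push Not at hcon
  have hle : q ^ 2 ≤ q ^ (2 * k) := Nat.pow_le_pow_right (by omega) (by omega)
  have h4 : 4 ≤ q ^ 2 := by nlinarith
  have h1 : q ^ (2 * k) + 1 = 2 ^ (q ^ (2 * k) + 1).primeFactorsList.length :=
    Nat.eq_prime_pow_of_unique_prime_dvd (by omega) fun {d} hd hdN => by
      by_contra hne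
      exact hcon d hd hne hdN
  generalize (q ^ (2 * k) + 1).primeFactorsList.length = n at h1
  rcases Nat.lt_or_ge n 2 with hn | hn
  · interval_cases n <;> omega
  · obtain ⟨c, rfl⟩ := Nat.exists_eq_add_of_le hn
    have h2 : (q ^ k) ^ 2 + 1 = 4 * 2 ^ c := by
      rw [← pow_mul, mul_comm k 2, h1, pow_add]
      norm_num
    generalize q ^ k = x at h2
    rcases Nat.even_or_odd' x with ⟨y, rfl | rfl⟩
    · have : (2 * y) ^ 2 = 4 * y ^ 2 := by ring
      omega
    · have : (2 * y + 1) ^ 2 = 4 * (y ^ 2 + y) + 1 := by ring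
      omega

/-- four primes, `q ≥ 3` -/
theorem exists_four {q : ℕ} (hq : 3 ≤ q) : ∃ a b c d : ℕ, a.Prime ∧ b.Prime ∧ c.Prime ∧ d.Prime ∧ a ≠ b ∧ a ≠ c ∧
    a ≠ d ∧ b ≠ c ∧ b ≠ d ∧ c ≠ d ∧ a ∣ q - 1 ∧ b ∣ q ^ 2 + 1 ∧ c ∣ q ^ 4 + 1 ∧ d ∣ q ^ 2 - q + 1 := by
  have hsq : q ^ 2 = q * q := sq q
  have hmul : 3 * q ≤ q * q := Nat.mul_le_mul_right _ hq
  obtain ⟨a, ha, had⟩ := Nat.exists_prime_and_dvd (n := q - 1) (by omega)
  obtain ⟨b, hb, hb2, hbd⟩ := exists_odd_prime (q := q) (k := 1) (by omega) one_pos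
  obtain ⟨c, hc, hc2, hcd⟩ := exists_odd_prime (q := q) (k := 2) (by omega) two_pos
  obtain ⟨d, hd, hdd⟩ := Nat.exists_prime_and_dvd (n := q ^ 2 - q + 1) (by omega)
  have hz : ∀ {x : ℕ}, x.Prime → (2 : ZMod x) = 0 → x = 2 := fun {x} hx h => by
    have h3 : ((2 : ℕ) : ZMod x) = 0 := by exact_mod_cast h
    exact (Nat.prime_dvd_prime_iff_eq hx Nat.prime_two).1 ((ZMod.natCast_eq_zero_iff _ _).1 h3)
  have za : ((q - 1 : ℕ) : ZMod a) = 0 := (ZMod.natCast_eq_zero_iff _ _).2 had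
  rw [Nat.cast_sub (by omega), Nat.cast_one] at za
  have zb : ((q ^ (2 * 1) + 1 : ℕ) : ZMod b) = 0 := (ZMod.natCast_eq_zero_iff _ _).2 hbd
  have zc : ((q ^ (2 * 2) + 1 : ℕ) : ZMod c) = 0 := (ZMod.natCast_eq_zero_iff _ _).2 hcd
  have zd : ((q ^ 2 - q + 1 : ℕ) : ZMod d) = 0 := (ZMod.natCast_eq_zero_iff _ _).2 hdd
  rw [Nat.cast_add, Nat.cast_sub (by omega)] at zd
  push_cast at zb zc zd
  refine ⟨a, b, c, d, ha, hb, hc, hd, ?_, ?_, ?_, ?_, ?_, ?_, had, hbd, hcd, hdd⟩
  · rintro rfl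
    apply hb2
    apply hz ha
    linear_combination zb - ((q : ZMod a) + 1) * za
  · rintro rfl
    apply hc2
    apply hz ha
    linear_combination zc - ((q : ZMod a) ^ 3 + (q : ZMod a) ^ 2 + q + 1) * za
  · rintro rfl
    have : Fact a.Prime := ⟨ha⟩
    have h1 : (1 : ZMod a) = 0 := by linear_combination zd - (q : ZMod a) * za
    exact one_ne_zero h1
  · rintro rfl
    apply hc2
    apply hz hb
    linear_combination zc - ((q : ZMod b) ^ 2 - 1) * zb
  · rintro rfl
    have : Fact b.Prime := ⟨hb⟩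
    have h0 : (q : ZMod b) = 0 := by linear_combination zb - zd
    rw [h0] at zb
    simp at zb
  · rintro rfl
    have : Fact c.Prime := ⟨hc⟩
    have h3 : (q : ZMod c) ^ 3 = -1 := by linear_combination ((q : ZMod c) + 1) * zd
    have h1 : (q : ZMod c) = 1 := by linear_combination -zc + (q : ZMod c) * h3
    rw [h1] at zd
    simp at zd

/-- `PΩ₈⁻(q)` -/
theorem kite_minus3 {K : Type} [Field K] [Fintype K] (a b : K)
    (hab : ∀ z₁ z₂ : K, z₁ ^ 2 + a * z₁ * z₂ + b * z₂ ^ 2 = 0 → z₁ = 0 ∧ z₂ = 0) :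
    Kite (POmega K (quadFormMinus 3 K a b)) := by
  obtain ⟨p, hp⟩ := CharP.exists K
  have hpr : p.Prime := (CharP.char_is_prime_or_zero K p).resolve_right (CharP.char_ne_zero_of_finite K p)
  have : Fact p.Prime := ⟨hpr⟩
  have hq2 : 2 ≤ Nat.card K := Finite.one_lt_card
  have hpK : p ∣ Nat.card K := char_dvd_card
  obtain ⟨f, -, hf⟩ := FiniteField.card K p
  obtain ⟨d₁, e0, e1, -⟩ := minus_ch_top K (p := p) a b hab (l := 3) le_rfl
  by_cases hq3 : 3 ≤ Nat.card K
  · obtain ⟨x, y, z, t, hx, hy, hz, ht, hxy, hxz, hxt, hyz, hyt, hzt, dx, dy, dz, dt⟩ := exists_four hq3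
    have hne : ∀ {w m : ℕ}, w.Prime → w ∣ m * Nat.card K + 1 → w ≠ p := by
      rintro w m hw h rfl
      exact hw.one_lt.ne' (Nat.dvd_one.1 ((Nat.dvd_add_right (hpK.mul_left m)).1 h))
    have nx : x ≠ p := by
      rintro rfl
      have h1 := Nat.dvd_sub hpK dx
      have h2 : Nat.card K - (Nat.card K - 1) = 1 := by omega
      rw [h2] at h1
      exact hx.one_lt.ne' (Nat.dvd_one.1 h1)
    have ny : y ≠ p := hne (m := Nat.card K) hy (by rw [← sq]; exact dy)
    have nz : z ≠ p := hne (m := Nat.card K ^ 3) hz (by rw [← pow_succ]; exact dz)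
    have nt : t ≠ p := by
      refine hne (m := Nat.card K - 1) ht ?_
      have : Nat.card K ^ 2 - Nat.card K = (Nat.card K - 1) * Nat.card K := by
        rw [sq, Nat.sub_mul, one_mul]
      rwa [← this]
    have m1 : x ∣ M1 (Nat.card K) 3 := by
      unfold M1
      exact Dvd.dvd.mul_right (Dvd.dvd.mul_right (Dvd.dvd.mul_left dx _) _) _
    have m2 : y ∣ M1 (Nat.card K) 3 := by
      unfold M1
      refine Dvd.dvd.mul_left (Dvd.dvd.trans dy ?_) _
      have h1 : Finset.Ico 1 (3 - 1) = {1} := by decide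
      rw [h1, Finset.prod_singleton]
      have h2 : Nat.card K ^ (2 * (1 + 1)) - 1 = (Nat.card K ^ 2 + 1) * (Nat.card K ^ 2 - 1) := by
        have := Nat.sq_sub_sq (Nat.card K ^ 2) 1
        rw [← pow_mul] at this
        simpa using this
      rw [h2]
      exact dvd_mul_right _ _
    have m3 : z ∣ M1 (Nat.card K) 3 := by
      unfold M1
      exact Dvd.dvd.mul_right (Dvd.dvd.mul_right (Dvd.dvd.mul_right dz _) _) _
    have m4 : t ∣ M1 (Nat.card K) 3 := by
      unfold M1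
      have h1 : Nat.card K ^ 3 + 1 = (Nat.card K + 1) * (Nat.card K ^ 2 - Nat.card K + 1) := by
        have : Nat.card K ≤ Nat.card K ^ 2 := Nat.le_self_pow two_ne_zero _
        zify [this]
        ring
      rw [h1]
      exact Dvd.dvd.mul_right (Dvd.dvd.mul_left (Dvd.dvd.mul_left dt _) _) _
    obtain ⟨χ, hχ⟩ := e0.exists_irr
    exact kite_of_primes χ hx hy hz ht hxy hxz hxt hyz hyt hzt (by rw [hχ]; exact e1 x hx nx m1)
      (by rw [hχ]; exact e1 y hy ny m2) (by rw [hχ]; exact e1 z hz nz m3) (by rw [hχ]; exact e1 t ht nt m4)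
  · have hq : Nat.card K = 2 := by omega
    rw [hq] at hpK
    have hp2 : p = 2 := (Nat.prime_dvd_prime_iff_eq hpr Nat.prime_two).1 hpK
    subst hp2
    obtain ⟨d₀, c0, c1, c2⟩ := ro8m K a b hab
    rw [← Nat.card_eq_fintype_card, hq] at c1 c2
    rw [hq] at e1
    have m3 : 3 ∣ d₁ := e1 3 (by norm_num) (by norm_num) (by decide +kernel)
    have m5 : 5 ∣ d₁ := e1 5 (by norm_num) (by norm_num) (by decide +kernel)
    have m17 : 17 ∣ d₁ := e1 17 (by norm_num) (by norm_num) (by decide +kernel)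
    have n2 : 2 ∣ d₀ := c1 2 (by norm_num) dvd_rfl
    have n3 : 3 ∣ d₀ := c2 3 (by norm_num) (by norm_num)
    have n7 : 7 ∣ d₀ := c2 7 (by norm_num) (by norm_num)
    refine kite_of_star 3 {2, 7, 5, 17} (by decide) ?_
    intro x hx
    simp only [Finset.mem_insert, Finset.mem_singleton] at hx
    rcases hx with rfl | rfl | rfl | rfl
    · exact adj_of_ch c0 (by norm_num) (by norm_num) (by norm_num) n3 n2
    · exact adj_of_ch c0 (by norm_num) (by norm_num) (by norm_num) n3 n7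
    · exact adj_of_ch e0 (by norm_num) (by norm_num) (by norm_num) m3 m5
    · exact adj_of_ch e0 (by norm_num) (by norm_num) (by norm_num) m3 m17

/-- **`PΩ⁻_{2m}(q)`** -/
theorem kite_omega_minus {S : Type u} [Group S] (h : IsPOmegaMinus S) (h5 : 5 ≤ (Nat.card S).primeFactors.card) :
    Kite S := by
  obtain ⟨F, _, _, m, a, b, hm, hab, ⟨e⟩⟩ := h
  obtain ⟨l, rfl⟩ : ∃ l, m = l + 1 := ⟨m - 1, by omega⟩
  change S ≃* POmega F (quadFormMinus l F a b) at e
  refine Kite.congr e ?_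
  by_cases hl3 : l = 3
  · subst hl3
    exact kite_minus3 a b hab
  obtain ⟨p, hp⟩ := CharP.exists F
  have hpr : p.Prime := (CharP.char_is_prime_or_zero F p).resolve_right (CharP.char_ne_zero_of_finite F p)
  have : Fact p.Prime := ⟨hpr⟩
  rw [Nat.card_congr e.toEquiv] at h5
  exact kite_of_Np (p := p) h5 fun r s hr hs hrp hsp hrs hd hd' =>
    (np_minus F (p := p) a b hab (by omega) hr hs hrp hsp hrs hd hd' (fun h => absurd h hl3)).resolve_right
      fun h => hl3 h.1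

end Cfsg.Agent.H40.KiteG
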