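import Cfsg.Agent.H345.CusU
import Cfsg.Agent.H113.PSU.Facts

/-!
# The characters of `PSU_4(q)` induced from the stabiliser of an isotropic point (helper40)

`exists_levi_one` : `q ≥ 4`: an irreducible character of `PSU_4(q)` of degree `e`, `(q³ + 1)(q² + 1) ∣ p^a e t`,
`t ∣ q + 1`.
-/

set_option autoImplicit false
set_option linter.unusedSectionVars false

open scoped ComplexConjugate
open Cfsg

namespace Cfsg.Agent.H40.KiteG

open Cfsg.Agent.OddOrderCharacters.Clifford Cfsg.Agent.Characters MulAction Module Cfsg.Agent.H53.HC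
open Cfsg.Agent.H139.Cusp Cfsg.Agent.H477.HC Cfsg.Agent.H345.CusU

universe u

theorem exists_cusU_one {K : Type u} [Field K] [Finite K] {q : ℕ} (hq : Nat.card K = q ^ 2) (h4 : 4 ≤ q) :
    ∃ c : GL (Fin 1) K → ℂ, Cus K 1 (CForm.powHom hq) (fun z => z ^ (q + 1) = 1) c := by
  classical
  have hk0 : 0 < 1 := by omega
  have hq2 : 2 ≤ q := CForm.two_le_of_card hq
  obtain ⟨L, _, _, _, hL⟩ := exists_L K 1 hk0
  obtain ⟨θ, hθ⟩ := exists_theta L
  have hcardL : Nat.card Lˣ = Nat.card K ^ 1 - 1 := by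
    rw [Nat.card_units, Module.natCard_eq_pow_finrank (K := K), hL]
  have ha : q + 1 ≠ 0 := by omega
  have hb : (q + 1) * q ≠ 0 := Nat.mul_ne_zero ha (by omega)
  have hR : Regular K 1 (powTheta θ (q + 1) ha) := (regular_powTheta_iff hθ ha hL).2 (by
    intro i hi hik h
    omega)
  refine ⟨psi L (powTheta θ (q + 1) ha), psi_isIrr _ hL hR, psi_isCusp L _, ?_, ?_, ?_⟩
  · intro h
    have h1 : ∀ g : ((Fin 1 → K) →ₗ[K] (Fin 1 → K))ˣ,
        cusp L (powTheta θ (q + 1) ha) (g : (Fin 1 → K) →ₗ[K] (Fin 1 → K)) =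
        cusp L (conjTheta (powTheta θ ((q + 1) * q) hb)) (g : (Fin 1 → K) →ₗ[K] (Fin 1 → K)) := by
      intro g
      let A : GL (Fin 1) K := Matrix.GeneralLinearGroup.toLin.symm g
      have h2 := congrFun h A
      rw [Function.comp_apply, MonoidHom.comp_apply,
        psi_map_pow (powTheta θ (q + 1) ha) (powTheta θ ((q + 1) * q) hb) hL hq
          (fun x => by rw [powTheta_apply, powTheta_apply, map_pow, ← pow_mul, mul_comm q]),
        psi_invT _ hL] at h2
      have h4 : ∀ θ₁ : L →*₀ ℂ, psi L θ₁ A = cusp L θ₁ (g : (Fin 1 → K) →ₗ[K] (Fin 1 → K)) := by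
        intro θ₁
        have h5 : Matrix.GeneralLinearGroup.toLin A = g := MulEquiv.apply_symm_apply _ g
        rw [← h5]
        rfl
      rw [h4, h4, cusp_star] at h2
      exact h2.symm
    obtain ⟨i, hi, h2⟩ := (cusp_eq_iff (V := Fin 1 → K) (powTheta θ (q + 1) ha)
      (conjTheta (powTheta θ ((q + 1) * q) hb))
      (by rw [Module.finrank_fin_fun, hL]) (by rw [hL]; exact hR)).1 h1
    rw [hL] at hi
    have h3 := (conj_powTheta_eq_iff hθ ha hb (pow_ne_zero i (Nat.card_pos (α := K)).ne')).1 h2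
    rw [hcardL, hq] at h3
    obtain rfl : i = 0 := by omega
    obtain ⟨j, rfl⟩ := Nat.exists_eq_add_of_le h4
    rw [pow_one, pow_zero, mul_one] at h3
    have h5 : (4 + j) ^ 2 - 1 = (4 + j + 1) * (3 + j) := by
      have : (4 + j) ^ 2 = (4 + j + 1) * (3 + j) + 1 := by ring
      omega
    have h6 : (4 + j + 1) + (4 + j + 1) * (4 + j) = (4 + j + 1) * (5 + j) := by ring
    rw [h5, h6] at h3
    have h7 := Nat.dvd_of_mul_dvd_mul_left (by omega) h3
    have h8 : 3 + j ∣ 2 := by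
      have : 5 + j = (3 + j) + 2 := by omega
      rw [this] at h7
      exact (Nat.dvd_add_right dvd_rfl).1 h7
    have := Nat.le_of_dvd (by norm_num) h8
    omega
  · intro z hz
    have h1 := psi_scalar (powTheta θ (q + 1) ha) hL z 1
    rw [mul_one] at h1
    rw [h1, powTheta_eq_one ha, one_mul]
    rw [← map_pow, ← Units.val_pow_eq_pow_val, hz, Units.val_one, map_one]
  · rw [psi_one L _ hk0, degP_eq_Ico]

open Cfsg.Agent.H113.PSU.Levi Cfsg.Agent.H113.PSU.Descent

variable {F : Type u} [Field F] [Fintype F] {q : ℕ}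

theorem exists_levi_one (hF : Fintype.card F = q ^ 2) (h4 : 4 ≤ q) {p : ℕ} [Fact p.Prime] [CharP F p] :
    ∃ (φ : IrrCharacter (PSU 4 F q)) (t a : ℕ), t ∣ q + 1 ∧
      (q ^ 3 + 1) * (q ^ 4 - 1) ∣ p ^ a * (charDegree (φ : PSU 4 F q → ℂ) * t * (q ^ 2 - 1)) := by
  classical
  have hq : Nat.card F = q ^ 2 := by rw [Nat.card_eq_fintype_card, hF]
  obtain ⟨c, hc⟩ := exists_cusU_one hq h4
  obtain ⟨a, ha⟩ := dvd_dg hq (p := p) (k := 1) (n' := 2) (by omega)
  obtain ⟨χ, hχ, hχ1, hχz⟩ := gu_char (n' := 2) hq hc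
  obtain ⟨η, e, hη, he, he0, hed, hdt⟩ := exists_psu (n := 4) hF (by omega) hχ hχ1 hχz
  refine ⟨⟨η, hη⟩, _, a, hdt, ?_⟩
  have hde : charDegree η = e := H670.PSing.charDegree_eq_of he
  change _ ∣ p ^ a * (charDegree η * _ * _)
  rw [hde, Nat.mul_div_cancel' hed]
  refine (dvd_of_eq ?_).trans ha
  rw [show 1 + (1 + 2) = 4 from rfl, Finset.prod_Ico_succ_top (by omega), Finset.prod_Ico_succ_top (by omega),
    Finset.Ico_self, Finset.prod_empty, one_mul]
  unfold uu
  rw [if_neg (by decide), if_pos (by decide)]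

end Cfsg.Agent.H40.KiteG
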