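import Cfsg.Agent.H40.Kite.Base
import Cfsg.Agent.H40.Kite.Arith
import Cfsg.Agent.H40.Kite.CusOne
import Cfsg.Agent.H113.PSU.Main
import Cfsg.Agent.Lib.Zsigmondy

/-!
# Kites in the degree graph of `PSU_n(q)`, `n ≥ 4` (helper40)
-/

set_option autoImplicit false
set_option linter.unusedSectionVars false

open Cfsg

namespace Cfsg.Agent.H40.KiteG

open Cfsg.Agent.H671.H5 Cfsg.Agent.H670.Reg Cfsg.Agent.H113.PSU.Levi Cfsg.Agent.H113.PSU.Facts

universe u

/-- a primitive prime divisor of `q ^ (2k) - 1` -/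
theorem zs {q k : ℕ} (hq : 2 ≤ q) (hk : 2 ≤ k) (h : ¬ (q = 2 ∧ k = 3)) :
    ∃ r : ℕ, r.Prime ∧ r ∣ q ^ k + 1 ∧ ∀ m, r ∣ q ^ m - 1 ↔ 2 * k ∣ m := by
  obtain ⟨r, hr, h1, -, -⟩ := Lib.Zsigmondy.exists_primitive (a := q) (n := 2 * k) hq (by omega) (by omega) (by
    rintro ⟨h2, h3⟩
    exact h ⟨h2, by omega⟩)
  refine ⟨r, hr, ?_, h1⟩
  have h2 : r ∣ q ^ (2 * k) - 1 := (h1 _).2 dvd_rfl
  have h3 : ¬ r ∣ q ^ k - 1 := fun h => by
    have := Nat.le_of_dvd (by omega) ((h1 _).1 h)
    omega
  have h4 : q ^ (2 * k) - 1 = (q ^ k - 1) * (q ^ k + 1) := by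
    obtain ⟨c, hc⟩ := Nat.exists_eq_add_of_le (Nat.one_le_pow k q (by omega))
    have e : q ^ (2 * k) = q ^ k * q ^ k := by rw [two_mul, pow_add]
    rw [e, hc, Nat.add_sub_cancel_left]
    have : (1 + c) * (1 + c) = c * (1 + c + 1) + 1 := by ring
    omega
  rw [h4, hr.dvd_mul] at h2
  exact h2.resolve_left h3

theorem sq_sub_one' {q : ℕ} (hq : 1 ≤ q) : q ^ 2 - 1 = (q - 1) * (q + 1) := by
  obtain ⟨c, rfl⟩ := Nat.exists_eq_add_of_le hq
  have e1 : 1 + c - 1 = c := by omega
  have e2 : (1 + c) ^ 2 = c * (1 + c + 1) + 1 := by ring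
  rw [e1, e2]
  omega

variable {F : Type u} [Field F] [Fintype F] {q n : ℕ}

/-- **`PSU_n(q)`, `n ≥ 4`** -/
theorem kite_psu_aux (hF : Fintype.card F = q ^ 2) (hn : 4 ≤ n)
    (h5 : 5 ≤ (Nat.card (PSU n F q)).primeFactors.card) : Kite (PSU n F q) := by
  classical
  have hq2 := LieClassical.HermBasic.two_le hF
  obtain ⟨p, hpr, hpch, hpq⟩ := prime_pow hF
  have hpf : Fact p.Prime := ⟨hpr⟩
  have hpdq : p ∣ q := (hpq p hpr).2 rfl
  obtain ⟨φA, hφA, -⟩ := exA (F := F) hF hn
  -- primes of `q ^ 2 - 1`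
  have k2 : ∀ r : ℕ, r.Prime → r ∣ q ^ 2 - 1 → r ∣ charDegree (φA : PSU n F q → ℂ) := fun r hr h =>
    hφA r hr ⟨2, two_mem_idx hn, by unfold uu; rwa [if_pos (by decide)]⟩
  have hp1 : ∀ m, 1 ≤ m → ¬ p ∣ q ^ m - 1 := by
    intro m hm h
    have h2 : p ∣ q ^ m := hpdq.trans (dvd_pow_self _ (by omega))
    have h3 : 1 ≤ q ^ m := Nat.one_le_pow _ _ (by omega)
    have h4 := Nat.dvd_sub h2 h
    rw [show q ^ m - (q ^ m - 1) = 1 by omega] at h4
    exact hpr.one_lt.ne' (Nat.dvd_one.1 h4)
  have hsq := sq_sub_one' (q := q) (by omega)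
  obtain ⟨r2, pr2, hr2⟩ := Nat.exists_prime_and_dvd (show q + 1 ≠ 1 by omega)
  have hr2' : r2 ∣ q ^ 2 - 1 := by rw [hsq]; exact hr2.mul_left _
  obtain ⟨r4, pr4, hr4, o4⟩ := zs (q := q) (k := 2) hq2 le_rfl (by omega)
  obtain ⟨r10, pr10, hr10, o10⟩ := zs (q := q) (k := 5) hq2 (by norm_num) (by omega)
  have hr4' : r4 ∣ q ^ 4 - 1 := (o4 4).2 dvd_rfl
  have hr10' : r10 ∣ q ^ 10 - 1 := (o10 10).2 dvd_rfl
  have n24 : r2 ≠ r4 := by
    rintro rfl
    exact absurd ((o4 2).1 hr2') (by decide)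
  have n210 : r2 ≠ r10 := by
    rintro rfl
    exact absurd ((o10 2).1 hr2') (by decide)
  have n410 : r4 ≠ r10 := by
    rintro rfl
    exact absurd ((o10 4).1 hr4') (by decide)
  rcases Nat.lt_or_ge n 7 with h7 | h7
  swap
  · -- `n ≥ 7`
    obtain ⟨r14, pr14, hr14, o14⟩ := zs (q := q) (k := 7) hq2 (by norm_num) (by omega)
    have hex : ∀ i, i = 4 ∨ i = 5 ∨ i = 7 → i ∈ idx n := by
      intro i hi
      refine mem_idx hn (by omega) (by omega) ?_ (by omega)
      unfold exn
      split_ifs with he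
      · have : n % 2 = 0 := Nat.even_iff.1 he
        omega
      · have : n % 2 = 1 := Nat.odd_iff.1 (Nat.not_even_iff_odd.1 he)
        omega
    refine kite_of_primes φA pr2 pr4 pr10 pr14 n24 n210 ?_ n410 ?_ ?_ (k2 _ pr2 hr2')
      (hφA _ pr4 ⟨4, hex 4 (by omega), by unfold uu; rwa [if_pos (by decide)]⟩)
      (hφA _ pr10 ⟨5, hex 5 (by omega), by unfold uu; rwa [if_neg (by decide)]⟩)
      (hφA _ pr14 ⟨7, hex 7 (by omega), by unfold uu; rwa [if_neg (by decide)]⟩)
    · rintro rfl
      exact absurd ((o14 2).1 hr2') (by decide)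
    · rintro rfl
      exact absurd ((o14 4).1 hr4') (by decide)
    · rintro rfl
      exact absurd ((o14 10).1 hr10') (by decide)
  -- `q = 2`: the primes
  have hsmall : ∀ T : Finset ℕ, T.card ≤ 4 → ¬ (∀ r : ℕ, r.Prime → r ∣ Nat.card (PSU n F q) → r ∈ T) := by
    intro T hT h
    have h1 : (Nat.card (PSU n F q)).primeFactors ⊆ T := by
      intro r hr
      rw [Nat.mem_primeFactors] at hr
      exact h r hr.1 hr.2.1
    have := Finset.card_le_card h1
    omega
  by_cases hq3 : q = 2
  · subst hq3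
    have hp2 : p = 2 := (Nat.prime_dvd_prime_iff_eq hpr Nat.prime_two).1 hpdq
    obtain rfl | rfl | rfl : n = 4 ∨ n = 5 ∨ n = 6 := by omega
    · exfalso
      refine hsmall {2, 3, 5} (by decide) fun r hr h => ?_
      have key : r ∣ 2 * (3 * 5) := by
        rcases cover hF hn hr h with h1 | ⟨i, hi, h1⟩ | ⟨-, h1⟩
        · exact h1.mul_right _
        · have hi' := idx_le hn hi
          have hi4 : i ≠ 4 := by
            rintro rfl
            exact absurd hi (by decide)
          obtain rfl | rfl | rfl : i = 1 ∨ i = 2 ∨ i = 3 := by omega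
          · exact (show r ∣ 3 from h1).trans (by norm_num)
          · exact (show r ∣ 3 from h1).trans (by norm_num)
          · exact (hr.dvd_of_dvd_pow (show r ∣ 3 ^ 2 from h1)).trans (by norm_num)
        · exact (show r ∣ 15 from h1).trans (by norm_num)
      rcases hr.dvd_mul.1 key with h1 | h1
      · rw [(Nat.prime_dvd_prime_iff_eq hr Nat.prime_two).1 h1]; decide
      · rcases hr.dvd_mul.1 h1 with h1 | h1
        · rw [(Nat.prime_dvd_prime_iff_eq hr Nat.prime_three).1 h1]; decide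
        · rw [(Nat.prime_dvd_prime_iff_eq hr Nat.prime_five).1 h1]; decide
    · exfalso
      refine hsmall {2, 3, 5, 11} (by decide) fun r hr h => ?_
      have key : r ∣ 2 * (3 * (5 * 11)) := by
        rcases cover hF hn hr h with h1 | ⟨i, hi, h1⟩ | ⟨-, h1⟩
        · exact h1.mul_right _
        · have hi' := idx_le hn hi
          obtain rfl | rfl | rfl : i = 2 ∨ i = 3 ∨ i = 5 := by
            have h4 : i ≠ 4 := by rintro rfl; exact absurd hi (by decide)
            have h4 : i ≠ 1 := by rintro rfl; exact absurd hi (by decide)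
            omega
          · exact (show r ∣ 3 from h1).trans (by norm_num)
          · exact (hr.dvd_of_dvd_pow (show r ∣ 3 ^ 2 from h1)).trans (by norm_num)
          · exact (show r ∣ 33 from h1).trans (by norm_num)
        · exact (show r ∣ 15 from h1).trans (by norm_num)
      rcases hr.dvd_mul.1 key with h1 | h1
      · rw [(Nat.prime_dvd_prime_iff_eq hr Nat.prime_two).1 h1]; decide
      · rcases hr.dvd_mul.1 h1 with h1 | h1
        · rw [(Nat.prime_dvd_prime_iff_eq hr Nat.prime_three).1 h1]; decide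
        · rcases hr.dvd_mul.1 h1 with h1 | h1
          · rw [(Nat.prime_dvd_prime_iff_eq hr Nat.prime_five).1 h1]; decide
          · rw [(Nat.prime_dvd_prime_iff_eq hr (by norm_num)).1 h1]; decide
    · obtain ⟨φF, hφF⟩ := exF (F := F) hF hn
      obtain ⟨φG, hφG⟩ := exG (F := F) hF hn
      have dF : charDegree (φF : PSU 6 F 2 → ℂ) = 252 := by
        have e : (2 ^ 2 - 1) * (2 + 1) * charDegree (φF : PSU 6 F 2 → ℂ) = 2 ^ 2 * 63 * 9 := hφF
        omega
      have dG : charDegree (φG : PSU 6 F 2 → ℂ) = 440 := by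
        have e : (2 ^ 2 - 1) * (2 + 1) * charDegree (φG : PSU 6 F 2 → ℂ) = 2 ^ 3 * 33 * 15 := hφG
        omega
      refine kite_of_star 2 {3, 7, 5, 11} (by decide) ?_
      intro x hx
      simp only [Finset.mem_insert, Finset.mem_singleton] at hx
      rcases hx with rfl | rfl | rfl | rfl
      · exact adj_of_dvd (φ := φF) Nat.prime_two (by norm_num) (by norm_num) (by rw [dF]; norm_num) (by rw [dF]; norm_num)
      · exact adj_of_dvd (φ := φF) Nat.prime_two (by norm_num) (by norm_num) (by rw [dF]; norm_num) (by rw [dF]; norm_num)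
      · exact adj_of_dvd (φ := φG) Nat.prime_two (by norm_num) (by norm_num) (by rw [dG]; norm_num) (by rw [dG]; norm_num)
      · exact adj_of_dvd (φ := φG) Nat.prime_two (by norm_num) (by norm_num) (by rw [dG]; norm_num) (by rw [dG]; norm_num)
  -- `q ≥ 3`
  obtain ⟨r6, pr6, hr6, o6⟩ := zs (q := q) (k := 3) hq2 (by norm_num) (by omega)
  have hr6' : r6 ∣ q ^ 6 - 1 := (o6 6).2 dvd_rfl
  have n26 : r2 ≠ r6 := by
    rintro rfl
    exact absurd ((o6 2).1 hr2') (by decide)
  have n46 : r4 ≠ r6 := by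
    rintro rfl
    exact absurd ((o6 4).1 hr4') (by decide)
  have n106 : r10 ≠ r6 := by
    rintro rfl
    exact absurd ((o6 10).1 hr10') (by decide)
  obtain rfl | rfl | rfl : n = 6 ∨ n = 5 ∨ n = 4 := by omega
  · -- `n = 6`
    exact kite_of_primes φA pr2 pr4 pr10 pr6 n24 n210 n26 n410 n46 n106 (k2 _ pr2 hr2')
      (hφA _ pr4 ⟨4, by decide, by unfold uu; rwa [if_pos (by decide)]⟩)
      (hφA _ pr10 ⟨5, by decide, by unfold uu; rwa [if_neg (by decide)]⟩)
      (hφA _ pr6 ⟨3, by decide, by unfold uu; rwa [if_neg (by decide)]⟩)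
  · -- `n = 5`
    rcases Nat.even_or_odd q with hev | hodd
    · have hq4 : 4 ≤ q := by
        obtain ⟨c, hc⟩ := hev
        omega
      obtain ⟨r1, pr1, hr1⟩ := Nat.exists_prime_and_dvd (show q - 1 ≠ 1 by omega)
      have hr1' : r1 ∣ q ^ 2 - 1 := by rw [hsq]; exact hr1.mul_right _
      have n12 : r1 ≠ r2 := by
        rintro rfl
        have h1 := Nat.dvd_sub hr2 hr1
        rw [show q + 1 - (q - 1) = 2 by omega] at h1
        have h2 := (Nat.prime_dvd_prime_iff_eq pr1 Nat.prime_two).1 h1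
        subst h2
        obtain ⟨c, hc⟩ := hev
        omega
      refine kite_of_primes φA pr1 pr2 pr10 pr6 n12 ?_ ?_ n210 n26 n106 (k2 _ pr1 hr1') (k2 _ pr2 hr2')
        (hφA _ pr10 ⟨5, by decide, by unfold uu; rwa [if_neg (by decide)]⟩)
        (hφA _ pr6 ⟨3, by decide, by unfold uu; rwa [if_neg (by decide)]⟩)
      · rintro rfl
        exact absurd ((o10 2).1 hr1') (by decide)
      · rintro rfl
        exact absurd ((o6 2).1 hr1') (by decide)
    · -- `q` odd: the second rank three character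
      obtain ⟨φG, hφG⟩ := exG (F := F) hF hn
      have hD : charDegree (φG : PSU 5 F q → ℂ) = q ^ 3 * (q ^ 2 + 1) * (q ^ 2 - q + 1) := by
        have e : (q ^ 2 - 1) * (q + 1) * charDegree (φG : PSU 5 F q → ℂ) = q ^ 3 * (q ^ 4 - 1) * (q ^ 3 + 1) := hφG
        have hpos : 0 < (q ^ 2 - 1) * (q + 1) := by
          have : 4 ≤ q ^ 2 := by nlinarith
          apply Nat.mul_pos <;> omega
        apply Nat.eq_of_mul_eq_mul_left hpos
        rw [e]
        have hle : q ≤ q ^ 2 := by nlinarith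
        have h1 : 1 ≤ q ^ 4 := Nat.one_le_pow _ _ (by omega)
        have h2 : 1 ≤ q ^ 2 := Nat.one_le_pow _ _ (by omega)
        zify [hle, h1, h2]
        ring
      have h2q : q % 2 = 1 := Nat.odd_iff.1 hodd
      have h2sq : 2 ∣ q ^ 2 - 1 := by
        rw [hsq]
        exact Dvd.dvd.mul_left (by omega) _
      have h2D : 2 ∣ q ^ 2 + 1 := by
        have : 1 ≤ q ^ 2 := Nat.one_le_pow _ _ (by omega)
        have e : q ^ 2 + 1 = (q ^ 2 - 1) + 2 := by omega
        rw [e]
        exact (Nat.dvd_add_right h2sq).2 dvd_rfl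
      have hp2 : p ≠ 2 := by
        rintro rfl
        omega
      have h42 : r4 ≠ 2 := by
        rintro rfl
        exact absurd ((o4 2).1 h2sq) (by decide)
      have h62 : r6 ≠ 2 := by
        rintro rfl
        exact absurd ((o6 2).1 h2sq) (by decide)
      have h6D : r6 ∣ q ^ 2 - q + 1 := by
        have hle : q ≤ q ^ 2 := by nlinarith
        have e : q ^ 3 + 1 = (q + 1) * (q ^ 2 - q + 1) := by
          zify [hle]
          ring
        rw [e, pr6.dvd_mul] at hr6
        refine hr6.resolve_left fun h => ?_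
        exact absurd ((o6 2).1 (by rw [hsq]; exact h.mul_left _)) (by decide)
      refine kite_of_primes φG hpr Nat.prime_two pr4 pr6 hp2 ?_ ?_ h42.symm h62.symm n46 ?_ ?_ ?_ ?_
      · rintro rfl
        exact hp1 4 (by norm_num) hr4'
      · rintro rfl
        exact hp1 6 (by norm_num) hr6'
      · rw [hD]
        exact ((hpdq.trans (dvd_pow_self _ (by norm_num))).mul_right _).mul_right _
      · rw [hD]
        exact (h2D.mul_left _).mul_right _
      · rw [hD]
        exact (hr4.mul_left _).mul_right _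
      · rw [hD]
        exact h6D.mul_left _
  · -- `n = 4`
    have k1 : ∀ r : ℕ, r.Prime → r ∣ q ^ 3 + 1 → r ∣ charDegree (φA : PSU 4 F q → ℂ) := fun r hr h =>
      hφA r hr ⟨3, by decide, by unfold uu; rwa [if_neg (by decide)]⟩
    rcases Nat.even_or_odd q with hev | hodd
    · have hq4 : 4 ≤ q := by
        obtain ⟨c, hc⟩ := hev
        omega
      have hp2 : 2 = p := (hpq 2 Nat.prime_two).1 (even_iff_two_dvd.1 hev)
      have hno2 : ∀ r : ℕ, r.Prime → r ∣ q - 1 → r ∣ q + 1 → False := by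
        intro r hr h1 h2
        have h3 := Nat.dvd_sub h2 h1
        rw [show q + 1 - (q - 1) = 2 by omega] at h3
        have h4 := (Nat.prime_dvd_prime_iff_eq hr Nat.prime_two).1 h3
        subst h4
        obtain ⟨c, hc⟩ := hev
        omega
      obtain ⟨r1, pr1, hr1⟩ := Nat.exists_prime_and_dvd (show q - 1 ≠ 1 by omega)
      have hm1 : ∀ r : ℕ, r ∣ q - 1 → r ∣ q ^ 2 - 1 := fun r h => by rw [hsq]; exact h.mul_right _
      have hm2 : ∀ r : ℕ, r ∣ q + 1 → r ∣ q ^ 2 - 1 := fun r h => by rw [hsq]; exact h.mul_left _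
      have hn6 : ∀ r : ℕ, r ∣ q ^ 2 - 1 → r ≠ r6 := by
        rintro r h rfl
        exact absurd ((o6 2).1 h) (by decide)
      have n12 : r1 ≠ r2 := by
        rintro rfl
        exact hno2 _ pr1 hr1 hr2
      by_cases c1 : ∀ r : ℕ, r.Prime → r ∣ q - 1 → r = r1
      swap
      · push Not at c1
        obtain ⟨s, ps, hs, hs1⟩ := c1
        refine kite_of_primes φA pr1 ps pr2 pr6 hs1.symm n12 (hn6 _ (hm1 _ hr1)) ?_ (hn6 _ (hm1 _ hs)) n26
          (k2 _ pr1 (hm1 _ hr1)) (k2 _ ps (hm1 _ hs)) (k2 _ pr2 hr2') (k1 _ pr6 hr6)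
        rintro rfl
        exact hno2 _ ps hs hr2
      by_cases c2 : ∀ r : ℕ, r.Prime → r ∣ q + 1 → r = r2
      swap
      · push Not at c2
        obtain ⟨s, ps, hs, hs1⟩ := c2
        refine kite_of_primes φA pr1 ps pr2 pr6 ?_ n12 (hn6 _ (hm1 _ hr1)) hs1 (hn6 _ (hm2 _ hs)) n26
          (k2 _ pr1 (hm1 _ hr1)) (k2 _ ps (hm2 _ hs)) (k2 _ pr2 hr2') (k1 _ pr6 hr6)
        rintro rfl
        exact hno2 _ ps hr1 hs
      obtain ⟨i, hi⟩ := eq_pow_of_forall (N := q - 1) (by omega) c1
      obtain ⟨j, hj⟩ := eq_pow_of_forall (N := q + 1) (by omega) c2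
      obtain ⟨f, hf⟩ := eq_pow_of_forall (N := q) (x := p) (by omega) fun r hr h => (hpq r hr).1 h
      rw [← hp2] at hf
      have hf2 : 2 ≤ f := by
        by_contra hcon
        have : f = 0 ∨ f = 1 := by omega
        rcases this with rfl | rfl
        · rw [pow_zero] at hf; omega
        · rw [pow_one] at hf; omega
      subst hp2
      obtain ⟨φL, t, a, ht, hL⟩ := exists_levi_one (F := F) (p := 2) hF hq4
      rcases two_pow_cases hf2 pr1 pr2 (by rw [← hf]; exact hi) (by rw [← hf]; exact hj) with h6 | h6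
      · -- `q = 4`
        rw [h6] at hf
        norm_num at hf
        subst hf
        obtain ⟨φG, hφG⟩ := exG (F := F) hF hn
        have dG : charDegree (φG : PSU 4 F 4 → ℂ) = 832 := by
          have e : (4 ^ 2 - 1) * (4 + 1) * charDegree (φG : PSU 4 F 4 → ℂ) = 4 ^ 3 * 65 * 15 := hφG
          omega
        have key : ∀ r : ℕ, r.Prime → r ≠ 2 → ¬ r ∣ 5 → ¬ r ∣ 15 → r ∣ (4 ^ 3 + 1) * (4 ^ 4 - 1) →
            r ∣ charDegree (φL : PSU 4 F 4 → ℂ) := by
          intro r hr h1 h2 h3 h4
          have h5 := h4.trans hL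
          rcases hr.dvd_mul.1 h5 with h6 | h6
          · exact absurd ((Nat.prime_dvd_prime_iff_eq hr Nat.prime_two).1 (hr.dvd_of_dvd_pow h6)) h1
          · rcases hr.dvd_mul.1 h6 with h7 | h7
            · rcases hr.dvd_mul.1 h7 with h8 | h8
              · exact h8
              · exact absurd (h8.trans ht) h2
            · exact absurd h7 h3
        refine kite_of_star 13 {3, 5, 2, 17} (by decide) ?_
        intro x hx
        simp only [Finset.mem_insert, Finset.mem_singleton] at hx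
        rcases hx with rfl | rfl | rfl | rfl
        · exact adj_of_dvd (φ := φA) (by norm_num) (by norm_num) (by norm_num) (k1 13 (by norm_num) (by norm_num))
            (k2 3 (by norm_num) (by norm_num))
        · exact adj_of_dvd (φ := φA) (by norm_num) (by norm_num) (by norm_num) (k1 13 (by norm_num) (by norm_num))
            (k2 5 (by norm_num) (by norm_num))
        · exact adj_of_dvd (φ := φG) (by norm_num) (by norm_num) (by norm_num) (by rw [dG]; norm_num) (by rw [dG]; norm_num)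
        · exact adj_of_dvd (φ := φL) (by norm_num) (by norm_num) (by norm_num)
            (key 13 (by norm_num) (by norm_num) (by norm_num) (by norm_num) (by norm_num))
            (key 17 (by norm_num) (by norm_num) (by norm_num) (by norm_num) (by norm_num))
      · -- `q = 8`
        rw [h6] at hf
        norm_num at hf
        subst hf
        have key : ∀ r : ℕ, r.Prime → r ≠ 2 → ¬ r ∣ 9 → ¬ r ∣ 63 → r ∣ (8 ^ 3 + 1) * (8 ^ 4 - 1) →
            r ∣ charDegree (φL : PSU 4 F 8 → ℂ) := by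
          intro r hr h1 h2 h3 h4
          have h5 := h4.trans hL
          rcases hr.dvd_mul.1 h5 with h6 | h6
          · exact absurd ((Nat.prime_dvd_prime_iff_eq hr Nat.prime_two).1 (hr.dvd_of_dvd_pow h6)) h1
          · rcases hr.dvd_mul.1 h6 with h7 | h7
            · rcases hr.dvd_mul.1 h7 with h8 | h8
              · exact h8
              · exact absurd (h8.trans ht) h2
            · exact absurd h7 h3
        have h3 : 3 ∣ charDegree (φL : PSU 4 F 8 → ℂ) := by
          obtain ⟨s, hs⟩ := ht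
          have h1 : 3 ^ 5 * s ∣ 2 ^ a * (charDegree (φL : PSU 4 F 8 → ℂ) * t * (8 ^ 2 - 1)) * s :=
            Nat.mul_dvd_mul ((show 3 ^ 5 ∣ (8 ^ 3 + 1) * (8 ^ 4 - 1) by norm_num).trans hL) dvd_rfl
          have h2 : 2 ^ a * (charDegree (φL : PSU 4 F 8 → ℂ) * t * (8 ^ 2 - 1)) * s =
              3 ^ 4 * (2 ^ a * (charDegree (φL : PSU 4 F 8 → ℂ) * 7)) := by
            have : 2 ^ a * (charDegree (φL : PSU 4 F 8 → ℂ) * t * (8 ^ 2 - 1)) * s =
              2 ^ a * charDegree (φL : PSU 4 F 8 → ℂ) * (t * s) * 63 := by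
              norm_num
              ring
            rw [this, ← hs]
            ring
          have h4 : 3 ^ 5 * s = 3 ^ 4 * (3 * s) := by ring
          rw [h2, h4] at h1
          have h5 := Nat.dvd_of_mul_dvd_mul_left (by norm_num) h1
          have h6 : 3 ∣ 2 ^ a * (charDegree (φL : PSU 4 F 8 → ℂ) * 7) := (Dvd.intro s rfl).trans h5
          rcases Nat.prime_three.dvd_mul.1 h6 with h7 | h7
          · exact absurd ((Nat.prime_dvd_prime_iff_eq Nat.prime_three Nat.prime_two).1
              (Nat.prime_three.dvd_of_dvd_pow h7)) (by norm_num)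
          · rcases Nat.prime_three.dvd_mul.1 h7 with h8 | h8
            · exact h8
            · exact absurd h8 (by norm_num)
        exact kite_of_primes φL (a := 3) (b := 5) (c := 13) (d := 19) (by norm_num) (by norm_num) (by norm_num)
          (by norm_num) (by norm_num) (by norm_num) (by norm_num) (by norm_num) (by norm_num) (by norm_num) h3
          (key 5 (by norm_num) (by norm_num) (by norm_num) (by norm_num) (by norm_num))
          (key 13 (by norm_num) (by norm_num) (by norm_num) (by norm_num) (by norm_num))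
          (key 19 (by norm_num) (by norm_num) (by norm_num) (by norm_num) (by norm_num))
    · -- `q` odd: `2` is adjacent to all other primes
      have h2q : q % 2 = 1 := Nat.odd_iff.1 hodd
      have h2sq : 2 ∣ q ^ 2 - 1 := by
        rw [hsq]
        exact Dvd.dvd.mul_left (by omega) _
      obtain ⟨φF, hφF⟩ := exF (F := F) hF hn
      have hD : charDegree (φF : PSU 4 F q → ℂ) = q ^ 2 * (q ^ 2 + 1) := by
        have e : (q ^ 2 - 1) * (q + 1) * charDegree (φF : PSU 4 F q → ℂ) = q ^ 2 * (q ^ 4 - 1) * (q ^ 1 + 1) := hφF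
        have hpos : 0 < (q ^ 2 - 1) * (q + 1) := by
          have : 4 ≤ q ^ 2 := by nlinarith
          apply Nat.mul_pos <;> omega
        apply Nat.eq_of_mul_eq_mul_left hpos
        rw [e]
        have h1 : 1 ≤ q ^ 4 := Nat.one_le_pow _ _ (by omega)
        have h2 : 1 ≤ q ^ 2 := Nat.one_le_pow _ _ (by omega)
        zify [h1, h2]
        ring
      have h2D : 2 ∣ q ^ 2 + 1 := by
        have : 1 ≤ q ^ 2 := Nat.one_le_pow _ _ (by omega)
        have e : q ^ 2 + 1 = (q ^ 2 - 1) + 2 := by omega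
        rw [e]
        exact (Nat.dvd_add_right h2sq).2 dvd_rfl
      refine kite_of_star 2 ((Nat.card (PSU 4 F q)).primeFactors.erase 2) ?_ ?_
      · have := Finset.pred_card_le_card_erase (s := (Nat.card (PSU 4 F q)).primeFactors) (a := 2)
        omega
      · intro x hx
        rw [Finset.mem_erase, Nat.mem_primeFactors] at hx
        obtain ⟨hx2, px, hxd, -⟩ := hx
        rcases cover hF hn px hxd with h1 | ⟨i, hi, h1⟩ | ⟨h1, h1'⟩
        · exact adj_of_dvd (φ := φF) Nat.prime_two px hx2.symm (by rw [hD]; exact h2D.mul_left _)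
            (by rw [hD]; exact (h1.trans (dvd_pow_self _ two_ne_zero)).mul_right _)
        · exact adj_of_dvd (φ := φA) Nat.prime_two px hx2.symm (k2 2 Nat.prime_two h2sq) (hφA x px ⟨i, hi, h1⟩)
        · refine adj_of_dvd (φ := φF) Nat.prime_two px hx2.symm (by rw [hD]; exact h2D.mul_left _) ?_
          rw [hD]
          have h3 : x ∣ q ^ 4 - 1 := h1'
          have h4 : q ^ 4 - 1 = (q ^ 2 - 1) * (q ^ 2 + 1) := by
            have h5 : 1 ≤ q ^ 4 := Nat.one_le_pow _ _ (by omega)
            have h6 : 1 ≤ q ^ 2 := Nat.one_le_pow _ _ (by omega)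
            zify [h5, h6]
            ring
          rw [h4, px.dvd_mul] at h3
          exact (h3.resolve_left h1).mul_left _

/-- **`PSU_n(q)`, `n ≥ 4`** -/
theorem kite_psu_un {S : Type u} [Group S] [Finite S] (h : H113.PSU.Main.IsUn S)
    (h5 : 5 ≤ (Nat.card S).primeFactors.card) : Kite S := by
  obtain ⟨F, _, _, n, q, hF, hn, ⟨e⟩⟩ := h
  refine Kite.congr e (kite_psu_aux hF hn ?_)
  rwa [← Nat.card_congr e.toEquiv]

end Cfsg.Agent.H40.KiteG
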