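import Cfsg.Agent.H40.Kite.Base
import Cfsg.Agent.H600.AltRow
import Cfsg.Agent.H115.HC.Rows
import Cfsg.Agent.H53.HC.ExcIM
import Cfsg.Agent.H42.Deg.F4Rows
import Cfsg.Agent.H732.DegSz
import Cfsg.Agent.H732.DegRee
import Cfsg.Agent.S1074

/-!
# Kites in degree graphs: alternating groups, exceptional groups, `Sz(q)`, `Ree(q)` (S4919, helper40)
-/

set_option autoImplicit false
set_option linter.unusedSectionVars false

namespace Cfsg.Agent.H40.KiteG

open Cfsg Cfsg.Agent.H671.H5 Cfsg.Agent.H670.Reg Cfsg.Agent.H53.HC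

universe u

/-- alternating groups -/
theorem kite_alt {S : Type u} [Group S] (h : IsAlternating S) (h5 : 5 ≤ (Nat.card S).primeFactors.card) : Kite S := by
  obtain ⟨n, hn, ⟨e⟩⟩ := h
  rw [Nat.card_congr e.toEquiv] at h5
  refine Kite.congr e ?_
  by_cases h9 : 9 ≤ n
  · have key : ∀ p q : ℕ, p.Prime → q.Prime → p < 11 → q < 11 → p ≠ q → Adj p q (alternatingGroup (Fin n)) :=
      fun p q hp hq h1 h2 h3 => H600.AltDeg.adj_small h9 hp hq h1 h2 h3
    exact kite_of_four (key 2 3 (by norm_num) (by norm_num) (by norm_num) (by norm_num) (by norm_num))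
      (key 2 5 (by norm_num) (by norm_num) (by norm_num) (by norm_num) (by norm_num))
      (key 2 7 (by norm_num) (by norm_num) (by norm_num) (by norm_num) (by norm_num))
      (key 3 5 (by norm_num) (by norm_num) (by norm_num) (by norm_num) (by norm_num))
      (key 3 7 (by norm_num) (by norm_num) (by norm_num) (by norm_num) (by norm_num)) (by norm_num)
  · exfalso
    have hsub : (Nat.card (alternatingGroup (Fin n))).primeFactors ⊆ {2, 3, 5, 7} := by
      intro x hx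
      rw [Nat.mem_primeFactors] at hx
      have h1 := H600.AltDeg.le_of_dvd_card hx.1 hx.2.1
      have h2 := H600.AltDeg.small_prime hx.1 (by omega)
      simpa using h2
    have := (Finset.card_le_card hsub).trans (show ({2, 3, 5, 7} : Finset ℕ).card ≤ 4 by decide)
    omega

/-- from a row of helper53 -/
theorem kite_of_row {S : Type u} [Group S] [Finite S] (h5 : 5 ≤ (Nat.card S).primeFactors.card) (h : ExcIM.Row S) :
    Kite S := by
  obtain ⟨r, f, q, -, -, -, hB⟩ := h.bigF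
  exact kite_of_big h5 hB.big

theorem kite_suz {S : Type u} [Group S] (h : Lie.IsoSuzuki S) (h5 : 5 ≤ (Nat.card S).primeFactors.card) : Kite S := by
  obtain ⟨m, -, hc, -, hadj⟩ := H732.DegSz.graph h
  refine kite_of_np (r := 2) h5 fun a b ha hb ha2 hb2 hab h1 h2 => (hadj a b).2 ⟨hab, ha, hb, Or.inl ⟨?_, ?_⟩⟩
  · rw [hc, mul_assoc] at h1
    rcases ha.dvd_mul.1 h1 with h3 | h3
    · exact absurd ((Nat.prime_dvd_prime_iff_eq ha Nat.prime_two).1 (ha.dvd_of_dvd_pow (ha.dvd_of_dvd_pow h3))) ha2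
    · exact h3
  · rw [hc, mul_assoc] at h2
    rcases hb.dvd_mul.1 h2 with h3 | h3
    · exact absurd ((Nat.prime_dvd_prime_iff_eq hb Nat.prime_two).1 (hb.dvd_of_dvd_pow (hb.dvd_of_dvd_pow h3))) hb2
    · exact h3

/-- an odd prime dividing `q + 1` -/
theorem ree_odd_prime {q : ℕ} (h8 : q % 8 = 3) (h3 : q ≠ 3) : ∃ t, t.Prime ∧ t ≠ 2 ∧ t ∣ q + 1 := by
  obtain ⟨t, ht, htd⟩ := Nat.exists_prime_and_dvd (n := (q + 1) / 4) (by omega)
  refine ⟨t, ht, ?_, htd.trans ⟨4, by omega⟩⟩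
  rintro rfl
  omega

theorem kite_ree {S : Type u} [Group S] (h : Lie.IsoRee S) : Kite S := by
  obtain ⟨m, hm, F, hc⟩ := H732.DegRee.facts_of_iso h
  have ar := LieRecognition.ReeClass.arith m
  have hle : 3 ^ (m + 1) + 1 ≤ 3 ^ (2 * m + 1) := Nat.pow_lt_pow_right (by norm_num) (by omega)
  have hab : (3 ^ (2 * m + 1) - 3 ^ (m + 1) + 1) * (3 ^ (2 * m + 1) + 3 ^ (m + 1) + 1) =
      (3 ^ (2 * m + 1)) ^ 2 - 3 ^ (2 * m + 1) + 1 := by
    have hr : (3 ^ (m + 1)) ^ 2 = 3 * 3 ^ (2 * m + 1) := by ring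
    obtain ⟨c, hc⟩ := Nat.exists_eq_add_of_le (Nat.le_of_succ_le hle)
    have hQ := ar.Q_eq
    set q := 3 ^ (2 * m + 1) with hq
    set r := 3 ^ (m + 1) with hrr
    have e1 : q - r + 1 = c + 1 := by omega
    rw [e1]
    have e2 : (c + 1) * (q + r + 1) + q = q ^ 2 + 1 := by
      rw [hc]
      have h3 : r ^ 2 = 3 * (r + c) := by rw [hr, hc]
      nlinarith
    omega
  have hpos : 0 < 3 ^ (m + 1) := by positivity
  have h27 : 3 ^ (2 * m + 1) ≠ 3 := by
    have : 3 ^ 2 ≤ 3 ^ (2 * m + 1) := Nat.pow_le_pow_right (by norm_num) (by omega)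
    omega
  obtain ⟨t, ht, ht2, htd⟩ := ree_odd_prime ar.q8 h27
  obtain ⟨r, hr, hrd⟩ := Nat.exists_prime_and_dvd (n := 3 ^ (2 * m + 1) - 3 ^ (m + 1) + 1) (by omega)
  obtain ⟨s, hs, hsd⟩ := Nat.exists_prime_and_dvd (n := 3 ^ (2 * m + 1) + 3 ^ (m + 1) + 1) (by omega)
  have hrQ : r ∣ (3 ^ (2 * m + 1)) ^ 2 - 3 ^ (2 * m + 1) + 1 := by rw [← hab]; exact hrd.mul_right _
  have hsQ : s ∣ (3 ^ (2 * m + 1)) ^ 2 - 3 ^ (2 * m + 1) + 1 := by rw [← hab]; exact hsd.mul_left _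
  obtain ⟨r2, r3, -, -, r1⟩ := ar.prime_Q hr hrQ
  obtain ⟨s2, s3, -, -, s1⟩ := ar.prime_Q hs hsQ
  have hrs : r ≠ s := by
    rintro rfl
    have h3 := Nat.dvd_sub hsd hrd
    have h4 : 3 ^ (2 * m + 1) + 3 ^ (m + 1) + 1 - (3 ^ (2 * m + 1) - 3 ^ (m + 1) + 1) = 2 * 3 ^ (m + 1) := by omega
    rw [h4] at h3
    rcases (Nat.Prime.dvd_mul hr).1 h3 with h5 | h5
    · exact r2 ((Nat.prime_dvd_prime_iff_eq hr Nat.prime_two).1 h5)
    · exact r3 ((Nat.prime_dvd_prime_iff_eq hr Nat.prime_three).1 (hr.dvd_of_dvd_pow h5))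
  have d2 : 2 ∣ (3 ^ (2 * m + 1)) ^ 3 + 1 := by
    rw [ar.cube]
    refine Dvd.dvd.mul_right ?_ _
    have := ar.q8
    omega
  have dt : t ∣ (3 ^ (2 * m + 1)) ^ 3 + 1 := by rw [ar.cube]; exact htd.mul_right _
  have dr : r ∣ (3 ^ (2 * m + 1)) ^ 3 + 1 := by rw [ar.cube]; exact hrQ.mul_left _
  have ds : s ∣ (3 ^ (2 * m + 1)) ^ 3 + 1 := by rw [ar.cube]; exact hsQ.mul_left _
  have htr : t ≠ r := by rintro rfl; exact r1 htd
  have hts : t ≠ s := by rintro rfl; exact s1 htd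
  exact kite_of_four (H732.DegRee.adj_one F Nat.prime_two ht ht2.symm d2 dt)
    (H732.DegRee.adj_one F Nat.prime_two hr r2.symm d2 dr) (H732.DegRee.adj_one F Nat.prime_two hs s2.symm d2 ds)
    (H732.DegRee.adj_one F ht hr htr dt dr) (H732.DegRee.adj_one F ht hs hts dt ds) hrs

/-- the Tits group has only four primes -/
theorem not_five_tits {S : Type u} [Group S] (h : Lie.IsoTits S) : ¬ 5 ≤ (Nat.card S).primeFactors.card := by
  intro h5
  obtain ⟨e⟩ := h
  rw [Nat.card_congr e.toEquiv, S1074.result.2.2.2] at h5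
  have hsub : (2 ^ 11 * 3 ^ 3 * 5 ^ 2 * 13).primeFactors ⊆ {2, 3, 5, 13} := by
    intro x hx
    rw [Nat.mem_primeFactors] at hx
    obtain ⟨px, hx, -⟩ := hx
    simp only [Finset.mem_insert, Finset.mem_singleton]
    rcases px.dvd_mul.1 hx with h1 | h1
    · rcases px.dvd_mul.1 h1 with h1 | h1
      · rcases px.dvd_mul.1 h1 with h1 | h1
        · exact Or.inl ((Nat.prime_dvd_prime_iff_eq px (by norm_num)).1 (px.dvd_of_dvd_pow h1))
        · exact Or.inr (Or.inl ((Nat.prime_dvd_prime_iff_eq px (by norm_num)).1 (px.dvd_of_dvd_pow h1)))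
      · exact Or.inr (Or.inr (Or.inl ((Nat.prime_dvd_prime_iff_eq px (by norm_num)).1 (px.dvd_of_dvd_pow h1))))
    · exact Or.inr (Or.inr (Or.inr ((Nat.prime_dvd_prime_iff_eq px (by norm_num)).1 h1)))
  have := (Finset.card_le_card hsub).trans (show ({2, 3, 5, 13} : Finset ℕ).card ≤ 4 by decide)
  omega

/-- **Exceptional groups.** -/
theorem kite_exc {S : Type u} [Group S] [Finite S] [hs : IsSimpleGroup S] (h5 : 5 ≤ (Nat.card S).primeFactors.card)
    (h : IsExceptionalLieType S) : Kite S := by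
  rcases h with h | h | h | h | h | h | h | h | h | h | h
  · obtain ⟨r, -, -, hB⟩ := H115.HC.Rows.big_G2 S h
    exact kite_of_big h5 hB
  · exact kite_of_row h5 (ExcIM.row_F4 h hs)
  · exact kite_of_row h5 (ExcIM.row_E6 h hs)
  · exact kite_of_row h5 (ExcIM.row_E7 h hs)
  · exact kite_of_row h5 (ExcIM.row_E8 h hs)
  · exact kite_of_row h5 (ExcIM.row_TwE6 h hs)
  · obtain ⟨r, -, -, hB⟩ := H115.HC.Rows.big_3D4 S h
    exact kite_of_big h5 hB
  · exact kite_suz h h5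
  · exact kite_ree h
  · exact kite_of_big h5 (H42.Deg.F4.big2 h)
  · exact absurd h5 (not_five_tits h)

end Cfsg.Agent.H40.KiteG
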