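import Cfsg.Agent.H40.Kite.U3Sixteen
import Cfsg.Agent.H40.Kite.Arith
import Cfsg.Agent.H40.Kite.Base
import Cfsg.Agent.H664.R1.U3Graph
import Cfsg.Agent.H113.PSU.Main

/-!
# Kites in the degree graph of `PSU(3,q)` (S4919, helper40)

`kite_u3` : five prime divisors.
-/

set_option autoImplicit false
set_option linter.unusedSectionVars false

namespace Cfsg.Agent.H40.KiteG

open Cfsg Cfsg.Agent.H671.H5 Cfsg.Agent.H670.Reg Cfsg.Agent.H664.R1 Cfsg.Agent.H664.R1.U3

universe u

section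

variable {S : Type u} [Group S] {q p : ℕ}

theorem u3_cases (D : DD S q p) {r : ℕ} (hr : r.Prime) (h : r ∣ Nat.card S) :
    r ∣ q ^ 3 + 1 ∨ r ∣ p * (q - 1) := by
  have h2 := h.trans D.card
  rcases hr.dvd_mul.1 h2 with h | h
  · exact Or.inl h
  rcases hr.dvd_mul.1 h with h | h
  · right
    rw [D.dvd_p hr (hr.dvd_of_dvd_pow h)]
    exact dvd_mul_right _ _
  · have h3 : q ^ 2 - 1 = (q + 1) * (q - 1) := by
      have := Nat.sq_sub_sq q 1
      simpa using this
    rw [h3] at h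
    rcases hr.dvd_mul.1 h with h | h
    · left
      rw [D.fact1]
      exact h.mul_right _
    · right
      exact h.mul_left _

/-- `q` odd: the vertex `2`. -/
theorem kite_u3_odd (D : DD S q p) (ho : Odd q) (h5 : 5 ≤ (Nat.card S).primeFactors.card) : Kite S := by
  have hq := D.hq
  refine kite_of_star 2 ((Nat.card S).primeFactors.erase 2) ?_ ?_
  · have := Finset.pred_card_le_card_erase (s := (Nat.card S).primeFactors) (a := 2)
    omega
  · intro x hx
    rw [Finset.mem_erase, Nat.mem_primeFactors] at hx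
    obtain ⟨hx2, px, hxd, -⟩ := hx
    rcases u3_cases D px hxd with h | h
    · exact D.adjA Nat.prime_two px hx2.symm (even_iff_two_dvd.1 ho.pow.add_one) h
    · refine D.adjB Nat.prime_two px hx2.symm (Dvd.dvd.mul_left ?_ _) h
      rw [Nat.odd_iff] at ho
      omega

/-- `q` even. -/
theorem kite_u3_even (D : DD S q p) (ho : Even q) (h5 : 5 ≤ (Nat.card S).primeFactors.card)
    (h16 : q = 16 → Kite S) : Kite S := by
  classical
  have hq := D.hq
  have hp2 : p = 2 := (D.dvd_p Nat.prime_two (even_iff_two_dvd.1 ho)).symm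
  obtain ⟨k, hk⟩ := D.hpk
  subst hp2
  have h2q := D.p_dvd
  have hle := D.le_sq
  have hq2 : q ^ 2 = q * q := sq q
  have hmul : 3 * q ≤ q * q := Nat.mul_le_mul_right _ hq
  obtain ⟨A, hA⟩ : ∃ A, A = (q ^ 3 + 1).primeFactors := ⟨_, rfl⟩
  obtain ⟨B, hB⟩ : ∃ B, B = (q - 1).primeFactors := ⟨_, rfl⟩
  obtain ⟨R, hR⟩ : ∃ R, R = (q ^ 2 - q + 1).primeFactors := ⟨_, rfl⟩
  have memA : ∀ x, x ∈ A ↔ x.Prime ∧ x ∣ q ^ 3 + 1 := by
    intro x
    rw [hA, Nat.mem_primeFactors]
    exact ⟨fun h => ⟨h.1, h.2.1⟩, fun h => ⟨h.1, h.2, by omega⟩⟩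
  have memB : ∀ x, x ∈ B ↔ x.Prime ∧ x ∣ q - 1 := by
    intro x
    rw [hB, Nat.mem_primeFactors]
    exact ⟨fun h => ⟨h.1, h.2.1⟩, fun h => ⟨h.1, h.2, by omega⟩⟩
  have memR : ∀ x, x ∈ R ↔ x.Prime ∧ x ∣ q ^ 2 - q + 1 := by
    intro x
    rw [hR, Nat.mem_primeFactors]
    exact ⟨fun h => ⟨h.1, h.2.1⟩, fun h => ⟨h.1, h.2, by omega⟩⟩
  have hRA : ∀ x ∈ R, x ∈ A := by
    intro x hx
    rw [memR] at hx
    rw [memA, D.fact1]
    exact ⟨hx.1, hx.2.mul_left _⟩
  have hA2 : ∀ x ∈ A, x ≠ 2 := by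
    intro x hx
    rw [memA] at hx
    rintro rfl
    have h1 := (Nat.dvd_add_right (h2q.trans (dvd_pow_self q (by norm_num)))).1 hx.2
    exact absurd h1 (by norm_num)
  have hB2 : ∀ x ∈ B, x ≠ 2 := by
    intro x hx
    rw [memB] at hx
    rintro rfl
    have := hx.2
    omega
  have hAB : ∀ x ∈ A, ∀ y ∈ B, x ≠ y := by
    intro x hx y hy
    rintro rfl
    have h2 := hA2 x hx
    rw [memA] at hx
    rw [memB] at hy
    have h3 : q - 1 ∣ q ^ 3 - 1 := by
      have := Nat.sub_dvd_pow_sub_pow q 1 3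
      simpa using this
    have h4 := Nat.dvd_sub hx.2 (hy.2.trans h3)
    have h5 : 1 ≤ q ^ 3 := Nat.one_le_pow _ _ (by omega)
    have h6 : q ^ 3 + 1 - (q ^ 3 - 1) = 2 := by omega
    rw [h6] at h4
    exact h2 ((Nat.prime_dvd_prime_iff_eq hx.1 Nat.prime_two).1 h4)
  -- adjacency
  have aA : ∀ x ∈ A, ∀ y ∈ A, x ≠ y → Adj x y S := fun x hx y hy hxy =>
    D.adjA ((memA x).1 hx).1 ((memA y).1 hy).1 hxy ((memA x).1 hx).2 ((memA y).1 hy).2
  have aR : ∀ x ∈ R, Adj 2 x S := fun x hx =>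
    D.adjC Nat.prime_two ((memR x).1 hx).1 (hA2 x (hRA x hx)).symm (h2q.mul_right _) (((memR x).1 hx).2.mul_left _)
  have aB : ∀ x ∈ B, Adj 2 x S := fun x hx =>
    D.adjB Nat.prime_two ((memB x).1 hx).1 (hB2 x hx).symm (dvd_mul_right _ _) (((memB x).1 hx).2.mul_left _)
  -- the number of primes
  have hcard : 5 ≤ A.card + B.card + 1 := by
    refine h5.trans ?_
    have hsub : (Nat.card S).primeFactors ⊆ insert 2 (A ∪ B) := by
      intro x hx
      rw [Nat.mem_primeFactors] at hx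
      rw [Finset.mem_insert, Finset.mem_union]
      rcases u3_cases D hx.1 hx.2.1 with h | h
      · exact Or.inr (Or.inl ((memA x).2 ⟨hx.1, h⟩))
      · rcases hx.1.dvd_mul.1 h with h | h
        · exact Or.inl ((Nat.prime_dvd_prime_iff_eq hx.1 Nat.prime_two).1 h)
        · exact Or.inr (Or.inr ((memB x).2 ⟨hx.1, h⟩))
    refine (Finset.card_le_card hsub).trans ((Finset.card_insert_le _ _).trans ?_)
    have := Finset.card_union_le A B
    omega
  have hRB : Disjoint R B := Finset.disjoint_left.2 fun x hx hy => hAB x (hRA x hx) x hy rfl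
  have hstar : 4 ≤ R.card + B.card → Kite S := fun h => by
    refine kite_of_star 2 (R ∪ B) (by rw [Finset.card_union_of_disjoint hRB]; exact h) ?_
    intro x hx
    rcases Finset.mem_union.1 hx with hx | hx
    · exact aR x hx
    · exact aB x hx
  by_cases hR2 : 2 ≤ R.card
  · obtain ⟨r, hr, s, hs, hrs⟩ := Finset.one_lt_card.1 hR2
    by_cases hA3 : 3 ≤ A.card
    · obtain ⟨a, ha⟩ : ((A.erase r).erase s).Nonempty := by
        rw [← Finset.card_pos]
        have h1 := Finset.pred_card_le_card_erase (s := A) (a := r)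
        have h2 := Finset.pred_card_le_card_erase (s := A.erase r) (a := s)
        omega
      rw [Finset.mem_erase, Finset.mem_erase] at ha
      obtain ⟨has, har, haA⟩ := ha
      exact kite_of_edge (aA r (hRA r hr) s (hRA s hs) hrs) (aA r (hRA r hr) a haA har.symm)
        (aA s (hRA s hs) a haA has.symm) (adj_symm (aR r hr)) (adj_symm (aR s hs)) (hA2 a haA)
    · exact hstar (by omega)
  -- one prime in `q² - q + 1`
  have hR1 : ∀ x y : ℕ, x.Prime → y.Prime → x ∣ q ^ 2 - q + 1 → y ∣ q ^ 2 - q + 1 → x = y := by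
    intro x y hx hy h1 h2
    by_contra hne
    exact hR2 (Finset.one_lt_card.2 ⟨x, (memR x).2 ⟨hx, h1⟩, y, (memR y).2 ⟨hy, h2⟩, hne⟩)
  have hRpos : 1 ≤ R.card := by
    obtain ⟨r, hr, hrd, -, -⟩ := D.exists_r
    exact Finset.card_pos.2 ⟨r, (memR r).2 ⟨hr, hrd⟩⟩
  by_cases hB3 : 3 ≤ B.card
  · exact hstar (by omega)
  rcases Nat.even_or_odd k with ⟨j, hj⟩ | ⟨j, hj⟩
  · have hq1 : q - 1 = (2 ^ j + 1) * (2 ^ j - 1) := by
      rw [hk, hj, pow_add]
      have := Nat.sq_sub_sq (2 ^ j) 1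
      rw [one_pow, sq] at this
      exact this
    rcases Nat.lt_or_ge j 2 with hj2 | hj2
    · exfalso
      have h4 : q = 4 := by
        have : j = 0 ∨ j = 1 := by omega
        rcases this with rfl | rfl
        · rw [hk, hj] at hq
          norm_num at hq
        · rw [hk, hj]
          norm_num
      have e1 : A.card ≤ 2 := by
        have h6 : A ⊆ {5, 13} := by
          intro x hx
          rw [memA, h4] at hx
          have h7 : x ∣ 5 * 13 := hx.2
          rw [Finset.mem_insert, Finset.mem_singleton]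
          rcases hx.1.dvd_mul.1 h7 with h8 | h8
          · exact Or.inl ((Nat.prime_dvd_prime_iff_eq hx.1 (by norm_num)).1 h8)
          · exact Or.inr ((Nat.prime_dvd_prime_iff_eq hx.1 (by norm_num)).1 h8)
        exact (Finset.card_le_card h6).trans (by decide)
      have e2 : B.card ≤ 1 := by
        have h6 : B ⊆ {3} := by
          intro x hx
          rw [memB, h4] at hx
          have h7 : x ∣ 3 := hx.2
          rw [Finset.mem_singleton]
          exact (Nat.prime_dvd_prime_iff_eq hx.1 (by norm_num)).1 h7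
        exact (Finset.card_le_card h6).trans (by decide)
      omega
    · have h6 : 4 ≤ 2 ^ j := by
        calc 4 = 2 ^ 2 := by norm_num
          _ ≤ 2 ^ j := Nat.pow_le_pow_right (by norm_num) hj2
      have hev : 2 ∣ 2 ^ j := dvd_pow_self 2 (by omega)
      obtain ⟨s, hs, hsd⟩ := Nat.exists_prime_and_dvd (show 2 ^ j + 1 ≠ 1 by omega)
      obtain ⟨t, ht, htd⟩ := Nat.exists_prime_and_dvd (show 2 ^ j - 1 ≠ 1 by omega)
      have hcop : ∀ x y : ℕ, x.Prime → x ∣ 2 ^ j + 1 → y.Prime → y ∣ 2 ^ j - 1 → x ≠ y := by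
        rintro x y hx h1 hy h2 rfl
        have h7 := Nat.dvd_sub h1 h2
        have h8 : 2 ^ j + 1 - (2 ^ j - 1) = 2 := by omega
        rw [h8] at h7
        have h9 := (Nat.prime_dvd_prime_iff_eq hx Nat.prime_two).1 h7
        rw [h9] at h1
        exact absurd ((Nat.dvd_add_right hev).1 h1) (by norm_num)
      have mB1 : ∀ x : ℕ, x.Prime → x ∣ 2 ^ j + 1 → x ∈ B := fun x hx h => by
        rw [memB, hq1]; exact ⟨hx, h.mul_right _⟩
      have mB2 : ∀ x : ℕ, x.Prime → x ∣ 2 ^ j - 1 → x ∈ B := fun x hx h => by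
        rw [memB, hq1]; exact ⟨hx, h.mul_left _⟩
      have hthree : ∀ x y z : ℕ, x ∈ B → y ∈ B → z ∈ B → x ≠ y → x ≠ z → y = z := by
        intro x y z hx hy hz hxy hxz
        by_contra hyz
        exact hB3 (Finset.two_lt_card.2 ⟨x, hx, y, hy, z, hz, hxy, hxz, hyz⟩)
      obtain ⟨i, hi⟩ := eq_pow_of_forall (N := 2 ^ j - 1) (x := t) (by omega) fun r hr hrd =>
        hthree s r t (mB1 s hs hsd) (mB2 r hr hrd) (mB2 t ht htd) (hcop s r hs hsd hr hrd) (hcop s t hs hsd ht htd)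
      obtain ⟨i', hi'⟩ := eq_pow_of_forall (N := 2 ^ j + 1) (x := s) (by omega) fun r hr hrd =>
        hthree t r s (mB2 t ht htd) (mB1 r hr hrd) (mB1 s hs hsd) (hcop r t hr hrd ht htd).symm
          (hcop s t hs hsd ht htd).symm
      rcases two_pow_cases hj2 ht hs hi hi' with rfl | rfl
      · exact h16 (by rw [hk, hj]; norm_num)
      · exfalso
        have hq64 : q = 64 := by rw [hk, hj]; norm_num
        have := hR1 37 109 (by norm_num) (by norm_num) (by rw [hq64]; norm_num) (by rw [hq64]; norm_num)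
        omega
  · exfalso
    have h5 : q % 3 = 2 := by
      rw [hk, hj, pow_succ, pow_mul]
      have : (2 ^ 2) ^ j % 3 = 1 := by
        rw [Nat.pow_mod]
        norm_num
      omega
    obtain ⟨c, hc⟩ : ∃ c, q = 3 * c + 2 := ⟨q / 3, by omega⟩
    have h6 : q ^ 2 - q + 1 = 3 * (3 * c ^ 2 + 3 * c + 1) := by
      rw [hc] at hle ⊢
      zify [hle]
      ring
    have hm1 : 3 * c ^ 2 + 3 * c + 1 ≠ 1 := by
      intro h7
      rw [h7] at h6
      omega
    obtain ⟨r, hr, hrd⟩ := Nat.exists_prime_and_dvd hm1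
    have h7 := hR1 3 r Nat.prime_three hr (by rw [h6]; exact dvd_mul_right _ _) (by rw [h6]; exact hrd.mul_left _)
    rw [← h7] at hrd
    have h8 : 3 ∣ 3 * c ^ 2 + 3 * c := ⟨c ^ 2 + c, by ring⟩
    exact absurd ((Nat.dvd_add_right h8).1 hrd) (by norm_num)

end

/-- `q = 16` -/
theorem kite_u3_sixteen {F : Type*} [Field F] [Fintype F] (hF : Fintype.card F = 16 ^ 2) : Kite (PSU 3 F 16) := by
  obtain ⟨σ, hσ, hs, ⟨e'⟩⟩ := exists_iso hF
  obtain ⟨p, D⟩ := exists_DD hF (by norm_num) e'.symm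
  have hp2 : p = 2 := (D.dvd_p Nat.prime_two (by norm_num)).symm
  subst hp2
  obtain ⟨χ, h15, h⟩ := sixteen (σ := σ) hF hs
  have h3 : 3 ∣ charDegree (χ : S σ → ℂ) := Dvd.dvd.trans (by norm_num) h15
  have h5 : 5 ∣ charDegree (χ : S σ → ℂ) := Dvd.dvd.trans (by norm_num) h15
  have a35 : Adj 3 5 (S σ) := adj_of_dvd (φ := χ) (by norm_num) (by norm_num) (by norm_num) h3 h5
  have a32 : Adj 3 2 (S σ) := D.adjB (by norm_num) (by norm_num) (by norm_num) (by norm_num) (by norm_num)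
  have a52 : Adj 5 2 (S σ) := D.adjB (by norm_num) (by norm_num) (by norm_num) (by norm_num) (by norm_num)
  refine Kite.congr e' ?_
  rcases h with h | h
  · exact kite_of_edge a35 a32 a52 (adj_of_dvd (φ := χ) (by norm_num) (by norm_num) (by norm_num) h3 h)
      (adj_of_dvd (φ := χ) (by norm_num) (by norm_num) (by norm_num) h5 h) (by norm_num)
  · exact kite_of_edge a35 a32 a52 (adj_of_dvd (φ := χ) (by norm_num) (by norm_num) (by norm_num) h3 h)
      (adj_of_dvd (φ := χ) (by norm_num) (by norm_num) (by norm_num) h5 h) (by norm_num)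

/-- **`PSU(3,q)`.** -/
theorem kite_u3 {S : Type u} [Group S] [Finite S] (h : H113.PSU.Main.IsU3 S)
    (h5 : 5 ≤ (Nat.card S).primeFactors.card) : Kite S := by
  obtain ⟨F, _, _, q, hF, hq2, ⟨e⟩⟩ := h
  have hq : 3 ≤ q := by
    by_contra hcon
    have h1 : 1 < Fintype.card F := Fintype.one_lt_card
    rw [hF] at h1
    have : q = 0 ∨ q = 1 := by omega
    rcases this with rfl | rfl <;> simp at h1
  obtain ⟨p, D⟩ := exists_DD hF hq e
  rcases Nat.even_or_odd q with ho | ho
  · refine kite_u3_even D ho h5 ?_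
    rintro rfl
    exact Kite.congr e (kite_u3_sixteen hF)
  · exact kite_u3_odd D ho h5

end Cfsg.Agent.H40.KiteG
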