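import Cfsg.Agent.H40.Kite.PSL
import Cfsg.Agent.H40.Kite.PSU
import Cfsg.Agent.H40.Kite.U3
import Cfsg.Agent.H40.Kite.Classical
import Cfsg.Agent.H40.Kite.Rows

/-!
# `FactKiteBig` (S4919, helper40, task KBIG)

`kite_nonsporadic` : a nonsporadic nonabelian simple group, not a `PSL(2,F)`, with at least five prime divisors;
`kiteBig` : `FactKiteBig` from the classification and the sporadic rows.
-/

set_option autoImplicit false

namespace Cfsg.Agent.H40.KiteG

open Cfsg Cfsg.Agent.H671.H5 Cfsg.Agent.H670.Reg

universe u v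

theorem kite_psu {S : Type u} [Group S] [Finite S] (h : IsPSU S) (h5 : 5 ≤ (Nat.card S).primeFactors.card) :
    Kite S := by
  rcases H113.PSU.Main.shape h with h | h
  · exact kite_u3 h h5
  · exact kite_psu_un h h5

/-- Every finite simple group is known. -/
def KnownAll : Prop := ∀ (X : Type u) [Group X] [Finite X] [IsSimpleGroup X], IsKnownSimple' X

/-- **The nonsporadic groups.** -/
theorem kite_or_sporadic {S : Type u} [Group S] [Finite S] [hs : IsSimpleGroup S] (hk : IsKnownSimple' S)
    (hna : ¬ IsMulCommutative S) (hL : ¬ IsL2 S) (h5 : 5 ≤ (Nat.card S).primeFactors.card) :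
    Kite S ∨ IsSporadicGroup S := by
  rcases hk with h | h | h | h | h | h | h | h | h | h
  · exfalso
    apply hna
    have : Fact (Nat.card S).Prime := ⟨h⟩
    have h1 : IsCyclic S := isCyclic_of_prime_card rfl
    exact ⟨⟨fun a b => (IsCyclic.commGroup (α := S)).mul_comm a b⟩⟩
  · exact Or.inl (kite_alt h h5)
  · exact Or.inl (kite_psl hL h h5)
  · exact Or.inl (kite_psp h h5)
  · exact Or.inl (kite_psu h h5)
  · exact Or.inl (kite_omega_odd h h5)
  · exact Or.inl (kite_omega_plus h h5)
  · exact Or.inl (kite_omega_minus h h5)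
  · exact Or.inl (kite_exc h5 h)
  · exact Or.inr h

/-- **`FactKiteBig`.** -/
theorem kiteBig (hK : KnownAll.{v})
    (hs : ∀ (S : Type v) [Group S] [Finite S] [IsSimpleGroup S], IsSporadicGroup S →
      5 ≤ (Nat.card S).primeFactors.card → (Nat.card S).primeFactors.card ≤ 6 → Kite S) : FactKiteBig.{v} := by
  intro S _ _ _ hna hL h5 h6
  rcases kite_or_sporadic (hK S) hna hL h5 with h | h
  · exact h
  · exact hs S h h5 h6

end Cfsg.Agent.H40.KiteG
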