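import Cfsg.Agent.H40.Kite.Base

/-!
# Kites from two cliques (helper40)
-/

set_option autoImplicit false

namespace Cfsg.Agent.H40.KiteG

open Cfsg Cfsg.Agent.H671.H5 Cfsg.Agent.H670.Reg

universe u

/-- Two cliques `A`, `B`, a vertex `p` adjacent to all members of `A \ B`. -/
theorem kite_of_two_cliques {S : Type u} [Group S] {p : ℕ} {A B : Finset ℕ}
    (hA : ∀ x ∈ A, ∀ y ∈ A, x ≠ y → Adj x y S) (hB : ∀ x ∈ B, ∀ y ∈ B, x ≠ y → Adj x y S)
    (hC : ∀ x ∈ A, x ∉ B → Adj p x S) (hpA : p ∉ A) (hpB : p ∉ B) (h4 : 4 ≤ (A ∪ B).card)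
    (hne : (A ∩ B).Nonempty)
    (hex : (A ∩ B).card = 1 → (A \ B).card = 1 → (B \ A).card = 2 → ∀ x ∈ A ∩ B, Adj p x S) : Kite S := by
  classical
  by_cases h1 : 4 ≤ A.card
  · exact kite_of_clique A h1 hA
  by_cases h2 : 4 ≤ B.card
  · exact kite_of_clique B h2 hB
  have e1 : (A ∩ B).card + (A \ B).card = A.card := Finset.card_inter_add_card_sdiff A B
  have e2 : (A ∩ B).card + (B \ A).card = B.card := by
    rw [Finset.inter_comm]
    exact Finset.card_inter_add_card_sdiff B A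
  have e3 : (A ∪ B).card + (A ∩ B).card = A.card + B.card := Finset.card_union_add_card_inter A B
  have e4 : 0 < (A ∩ B).card := Finset.card_pos.2 hne
  by_cases h3 : 2 ≤ (A ∩ B).card
  · obtain ⟨x, hx, y, hy, hxy⟩ := Finset.one_lt_card.1 (show 1 < (A ∩ B).card by omega)
    obtain ⟨w, hw⟩ := Finset.card_pos.1 (show 0 < (A \ B).card by omega)
    obtain ⟨z, hz⟩ := Finset.card_pos.1 (show 0 < (B \ A).card by omega)
    rw [Finset.mem_inter] at hx hy
    rw [Finset.mem_sdiff] at hw hz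
    refine kite_of_edge (a := x) (b := y) (c := w) (d := z) (hA x hx.1 y hy.1 hxy)
      (hA x hx.1 w hw.1 ?_) (hA y hy.1 w hw.1 ?_) (hB x hx.2 z hz.1 ?_) (hB y hy.2 z hz.1 ?_) ?_
    · rintro rfl; exact hw.2 hx.2
    · rintro rfl; exact hw.2 hy.2
    · rintro rfl; exact hz.2 hx.1
    · rintro rfl; exact hz.2 hy.1
    · rintro rfl; exact hz.2 hw.1
  have e5 : (A ∩ B).card = 1 := by omega
  obtain ⟨x, hx⟩ := hne
  have hx' := hx
  rw [Finset.mem_inter] at hx
  have hxp : x ≠ p := by rintro rfl; exact hpA hx.1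
  -- the neighbours of `x`
  have hstar : ∀ y ∈ (A ∪ B).erase x, Adj x y S := by
    intro y hy
    rw [Finset.mem_erase, Finset.mem_union] at hy
    rcases hy.2 with h | h
    · exact hA x hx.1 y h (Ne.symm hy.1)
    · exact hB x hx.2 y h (Ne.symm hy.1)
  have hcard : ((A ∪ B).erase x).card = (A ∪ B).card - 1 :=
    Finset.card_erase_of_mem (Finset.mem_union_left _ hx.1)
  by_cases h5 : 5 ≤ (A ∪ B).card
  · exact kite_of_star x _ (by omega) hstar
  by_cases h6 : 2 ≤ (A \ B).card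
  · obtain ⟨s, hs, t, ht, hst⟩ := Finset.one_lt_card.1 (show 1 < (A \ B).card by omega)
    rw [Finset.mem_sdiff] at hs ht
    refine kite_of_edge (a := s) (b := t) (c := x) (d := p) (hA s hs.1 t ht.1 hst)
      (hA s hs.1 x hx.1 ?_) (hA t ht.1 x hx.1 ?_) (adj_symm (hC s hs.1 hs.2)) (adj_symm (hC t ht.1 ht.2)) hxp
    · rintro rfl; exact hs.2 hx.2
    · rintro rfl; exact ht.2 hx.2
  · have h7 := hex e5 (by omega) (by omega) x hx'
    refine kite_of_star x (insert p ((A ∪ B).erase x)) ?_ ?_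
    · rw [Finset.card_insert_of_notMem, hcard]
      · omega
      · intro h
        rw [Finset.mem_erase, Finset.mem_union] at h
        exact h.2.elim hpA hpB
    · intro y hy
      rw [Finset.mem_insert] at hy
      rcases hy with rfl | hy
      · exact adj_symm h7
      · exact hstar y hy

end Cfsg.Agent.H40.KiteG
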