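import Cfsg.Agent.H40.Kite.Comb
import Cfsg.Agent.H40.Kite.Arith
import Cfsg.Agent.H113.PSL.Main

/-!
# Kites in the degree graph of `PSL_n(q)`, `n ≥ 3` (helper40)
-/

set_option autoImplicit false

open Cfsg Matrix

namespace Cfsg.Agent.H40.KiteG

open Cfsg.Agent.H671.H5 Cfsg.Agent.H670.Reg Cfsg.Agent.H113.PSL Cfsg.Agent.H113.PSL.Degrees Cfsg.Agent.H113.PSL.Facts

universe u

section psl

variable {F : Type u} [Field F] [Fintype F]

local notation "𝔮" => Fintype.card F

theorem isA_not_dvd {n r : ℕ} (hr : r.Prime) (h : Facts.IsA F n r) : ¬ r ∣ 𝔮 := by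
  obtain ⟨i, hi, -, h1⟩ := h
  intro h2
  have h3 : r ∣ 𝔮 ^ i := h2.trans (dvd_pow_self _ (by omega))
  have h4 : 1 ≤ 𝔮 ^ i := Nat.one_le_pow _ _ Fintype.card_pos
  have h5 := Nat.dvd_sub h3 h1
  have h6 : 𝔮 ^ i - (𝔮 ^ i - 1) = 1 := by omega
  rw [h6] at h5
  exact hr.one_lt.ne' (Nat.dvd_one.1 h5)

theorem isB_not_dvd {n r : ℕ} (hn : 3 ≤ n) (hr : r.Prime) (h : Facts.IsB F n r) : ¬ r ∣ 𝔮 := by
  rcases h with h1 | ⟨i, hi, hin, h1⟩
  · exact isA_not_dvd (n := n + 1) hr ⟨n, by omega, by omega, h1⟩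
  · exact isA_not_dvd (n := n) hr ⟨i, hi, by omega, h1⟩

/-- **`PSL_n(q)`** -/
theorem kite_psl_aux {n : ℕ} (hn : 3 ≤ n) (hC : ∀ m, 1 ≤ m → HasCusp F m) (h24 : 2 < 𝔮 ∨ 4 ≤ n)
    (h5 : 5 ≤ (Nat.card (ProjectiveSpecialLinearGroup (Fin n) F)).primeFactors.card) :
    Kite (ProjectiveSpecialLinearGroup (Fin n) F) := by
  classical
  obtain ⟨φA, hφA⟩ := exA hn (hC n (by omega))
  obtain ⟨φB, hφB⟩ := exB hn (hC (n - 1) (by omega))
  obtain ⟨φC, hφC⟩ := exC (F := F) (n := n) (by omega)
  have hq := one_lt_q (F := F)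
  obtain ⟨p, hch⟩ := CharP.exists F
  obtain ⟨⟨f, hf0⟩, hp, hcard⟩ := FiniteField.card F p
  replace hcard : 𝔮 = p ^ f := hcard
  have hpq : p ∣ 𝔮 := by rw [hcard]; exact dvd_pow_self p hf0.ne'
  have hqp : ∀ r : ℕ, r.Prime → r ∣ 𝔮 → r = p := fun r hr h => eq_of_dvd_q hr hp h hpq
  obtain ⟨N, hN⟩ : ∃ N, N = (Nat.card (ProjectiveSpecialLinearGroup (Fin n) F)).primeFactors := ⟨_, rfl⟩
  rw [← hN] at h5
  have hmN : ∀ r : ℕ, r.Prime → ∀ φ : IrrCharacter (ProjectiveSpecialLinearGroup (Fin n) F),
      r ∣ charDegree (φ : ProjectiveSpecialLinearGroup (Fin n) F → ℂ) → r ∈ N := by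
    intro r hr φ h
    rw [hN, Nat.mem_primeFactors]
    exact ⟨hr, h.trans (H424.DegTools.dvd_card ⟨φ, rfl⟩), Nat.card_pos.ne'⟩
  have hNp : ∀ r ∈ N, r.Prime := fun r hr => by
    rw [hN] at hr
    exact Nat.prime_of_mem_primeFactors hr
  obtain ⟨A, hA⟩ : ∃ A, A = N.filter (fun r => Facts.IsA F n r) := ⟨_, rfl⟩
  obtain ⟨B, hB⟩ : ∃ B, B = N.filter (fun r => Facts.IsB F n r) := ⟨_, rfl⟩
  have mA : ∀ r : ℕ, r ∈ A ↔ r.Prime ∧ Facts.IsA F n r := by
    intro r
    rw [hA, Finset.mem_filter]
    exact ⟨fun h => ⟨hNp r h.1, h.2⟩, fun h => ⟨hmN r h.1 φA (hφA r h.2), h.2⟩⟩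
  have mB : ∀ r : ℕ, r ∈ B ↔ r.Prime ∧ Facts.IsB F n r := by
    intro r
    rw [hB, Finset.mem_filter]
    exact ⟨fun h => ⟨hNp r h.1, h.2⟩, fun h => ⟨hmN r h.1 φB (hφB r h.1 h.2), h.2⟩⟩
  have hAB : 4 ≤ (A ∪ B).card := by
    have h1 : N ⊆ insert p (A ∪ B) := by
      intro r hr
      have hrp := hNp r hr
      rw [Finset.mem_insert, Finset.mem_union, mA, mB]
      rw [hN, Nat.mem_primeFactors] at hr
      rcases cover hrp hr.2.1 with h | h | h
      · exact Or.inl (hqp r hrp h)
      · exact Or.inr (Or.inl ⟨hrp, h⟩)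
      · exact Or.inr (Or.inr ⟨hrp, h⟩)
    have h2 := Finset.card_le_card h1
    have h3 := Finset.card_insert_le p (A ∪ B)
    omega
  refine kite_of_two_cliques (p := p) (A := A) (B := B) ?_ ?_ ?_ ?_ ?_ hAB ?_ ?_
  · intro x hx y hy hxy
    rw [mA] at hx hy
    exact adj_of_dvd hx.1 hy.1 hxy (hφA x hx.2) (hφA y hy.2)
  · intro x hx y hy hxy
    rw [mB] at hx hy
    exact adj_of_dvd hx.1 hy.1 hxy (hφB x hx.1 hx.2) (hφB y hy.1 hy.2)
  · intro x hx hxB
    rw [mA] at hx
    have h1 : ¬ Facts.IsB F n x := fun h => hxB ((mB x).2 ⟨hx.1, h⟩)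
    refine adj_of_dvd hp hx.1 ?_ (hφC p (Or.inl hpq)) (hφC x (isC_of_isA hn hx.1 hx.2 h1))
    rintro rfl
    exact isA_not_dvd hx.1 hx.2 hpq
  · intro h
    exact isA_not_dvd hp ((mA p).1 h).2 hpq
  · intro h
    exact isB_not_dvd hn hp ((mB p).1 h).2 hpq
  · obtain ⟨c, hc, hcA, hcB⟩ := exists_both (F := F) hn h24
    exact ⟨c, Finset.mem_inter.2 ⟨(mA c).2 ⟨hc, hcA⟩, (mB c).2 ⟨hc, hcB⟩⟩⟩
  · intro c1 a1 b2 x hx
    obtain ⟨x', hx'⟩ := Finset.card_eq_one.1 c1
    have hxx : x = x' := by rw [hx'] at hx; exact Finset.mem_singleton.1 hx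
    subst hxx
    rw [Finset.mem_inter, mA, mB] at hx
    have hxp := hx.1.1
    have uni : ∀ r : ℕ, r.Prime → Facts.IsA F n r → Facts.IsB F n r → r = x := by
      intro r hr h1 h2
      have h3 : r ∈ A ∩ B := Finset.mem_inter.2 ⟨(mA r).2 ⟨hr, h1⟩, (mB r).2 ⟨hr, h2⟩⟩
      rw [hx'] at h3
      exact Finset.mem_singleton.1 h3
    -- two primes in `B \ A`
    obtain ⟨b₁, hb₁, b₂, hb₂, hbb⟩ := Finset.one_lt_card.1 (show 1 < (B \ A).card by omega)
    rw [Finset.mem_sdiff, mB, mA] at hb₁ hb₂
    rcases Nat.eq_or_lt_of_le hn with h3 | h3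
    · subst h3
      have hq2 : 2 < 𝔮 := h24.resolve_right (by norm_num)
      obtain ⟨i, hi⟩ := eq_pow_of_forall (N := 𝔮 - 1) (x := x) (by omega) fun r hr h =>
        uni r hr ⟨1, by norm_num, by norm_num, by rwa [pow_one]⟩ (Or.inr ⟨1, by norm_num, by norm_num, by rwa [pow_one]⟩)
      by_cases hx1 : x ∣ 𝔮 + 1
      · refine adj_of_dvd hp hxp ?_ (hφC p (Or.inl hpq)) (hφC x (Or.inr ?_))
        · rintro rfl
          exact isA_not_dvd hxp hx.1.2 hpq
        · rw [Finset.sum_range_succ, Finset.sum_range_one, pow_zero, pow_one, add_comm]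
          exact hx1
      · exfalso
        have hi0 : i ≠ 0 := by
          rintro rfl
          rw [pow_zero] at hi
          omega
        have hxd : x ∣ 𝔮 - 1 := by rw [hi]; exact dvd_pow_self x hi0
        have hx2 : x ≠ 2 := by
          rintro rfl
          apply hx1
          have : 𝔮 + 1 = (𝔮 - 1) + 2 := by omega
          rw [this]
          exact (Nat.dvd_add_right hxd).2 dvd_rfl
        have hodd : ¬ 2 ∣ 𝔮 - 1 := by
          rw [hi]
          intro h
          exact hx2 ((Nat.prime_dvd_prime_iff_eq Nat.prime_two hxp).1 (Nat.prime_two.dvd_of_dvd_pow h)).symm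
        have h2q : 2 ∣ 𝔮 := by omega
        have hp2 : 2 = p := hqp 2 Nat.prime_two h2q
        -- the primes dividing `q + 1`
        obtain ⟨s, hs⟩ := Finset.card_eq_one.1 a1
        have hsA : ∀ r : ℕ, r.Prime → r ∣ 𝔮 + 1 → r = s := by
          intro r hr h
          have h6 : r ∈ A \ B := by
            rw [Finset.mem_sdiff, mA, mB]
            refine ⟨⟨hr, 2, by norm_num, by norm_num, ?_⟩, ?_⟩
            · obtain ⟨k, hk⟩ := Nat.exists_eq_add_of_le hq2.le
              have e : 𝔮 ^ 2 - 1 = (𝔮 + 1) * (𝔮 - 1) := by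
                rw [hk]
                have e1 : 2 + k - 1 = k + 1 := by omega
                have e2 : (2 + k) ^ 2 = (2 + k + 1) * (k + 1) + 1 := by ring
                rw [e1, e2]
                omega
              rw [e]
              exact h.mul_right _
            · rintro ⟨-, h7 | ⟨j, hj, hj3, h7⟩⟩
              · have h8 : r ∣ 𝔮 ^ 3 + 1 := by
                  obtain ⟨c, hc⟩ := h
                  obtain ⟨k, hk⟩ := Nat.exists_eq_add_of_le hq2.le
                  have e : 𝔮 ^ 3 + 1 = (𝔮 + 1) * (k * k + 3 * k + 3) := by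
                    rw [hk]; ring
                  rw [e]
                  exact (Dvd.intro c hc.symm).mul_right _
                have h9 : 1 ≤ 𝔮 ^ 3 := Nat.one_le_pow _ _ (by omega)
                have h10 := Nat.dvd_sub h8 h7
                have h11 : 𝔮 ^ 3 + 1 - (𝔮 ^ 3 - 1) = 2 := by omega
                rw [h11] at h10
                have h12 := (Nat.prime_dvd_prime_iff_eq hr Nat.prime_two).1 h10
                rw [h12] at h
                omega
              · have hj1 : j = 1 := by omega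
                rw [hj1, pow_one] at h7
                rw [hi] at h7
                have h12 := (Nat.prime_dvd_prime_iff_eq hr hxp).1 (hr.dvd_of_dvd_pow h7)
                rw [h12] at h
                exact hx1 h
          rw [hs] at h6
          exact Finset.mem_singleton.1 h6
        obtain ⟨j, hj⟩ := eq_pow_of_forall (N := 𝔮 + 1) (x := s) (by omega) hsA
        have hsp : s.Prime := by
          have h6 : s ∈ A \ B := by rw [hs]; exact Finset.mem_singleton_self s
          rw [Finset.mem_sdiff, mA] at h6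
          exact h6.1.1
        have hf2 : 2 ≤ f := by
          by_contra hcon
          have : f = 1 := by omega
          rw [this, ← hp2] at hcard
          omega
        rw [← hp2] at hcard
        have hbc : ∀ r : ℕ, r.Prime → Facts.IsB F 3 r → r ∣ 𝔮 ^ 3 - 1 := by
          rintro r hr (h | ⟨j, hj, hj3, h⟩)
          · exact h
          · have hj1 : j = 1 := by omega
            rw [hj1, pow_one] at h
            exact h.trans (sub_one_dvd 3)
        rcases two_pow_cases hf2 hxp hsp (by rw [← hcard]; exact hi) (by rw [← hcard]; exact hj) with h6 | h6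
        · rw [h6] at hcard
          have key : ∀ r : ℕ, r.Prime → Facts.IsB F 3 r → ¬ (r.Prime ∧ Facts.IsA F 3 r) → r = 7 := by
            intro r hr h7 h8
            have h9 := hbc r hr h7
            rw [hcard] at h9
            have h10 : r ∣ 3 ^ 2 * 7 := by simpa using h9
            rcases hr.dvd_mul.1 h10 with h11 | h11
            · exfalso
              have h12 := (Nat.prime_dvd_prime_iff_eq hr Nat.prime_three).1 (hr.dvd_of_dvd_pow h11)
              exact h8 ⟨hr, 1, by norm_num, by norm_num, by rw [hcard, h12]; norm_num⟩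
            · exact (Nat.prime_dvd_prime_iff_eq hr (by norm_num)).1 h11
          exact hbb ((key _ hb₁.1.1 hb₁.1.2 hb₁.2).trans (key _ hb₂.1.1 hb₂.1.2 hb₂.2).symm)
        · rw [h6] at hcard
          have key : ∀ r : ℕ, r.Prime → Facts.IsB F 3 r → ¬ (r.Prime ∧ Facts.IsA F 3 r) → r = 73 := by
            intro r hr h7 h8
            have h9 := hbc r hr h7
            rw [hcard] at h9
            have h10 : r ∣ 7 * 73 := by simpa using h9
            rcases hr.dvd_mul.1 h10 with h11 | h11
            · exfalso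
              have h12 := (Nat.prime_dvd_prime_iff_eq hr (by norm_num)).1 h11
              exact h8 ⟨hr, 1, by norm_num, by norm_num, by rw [hcard, h12]; norm_num⟩
            · exact (Nat.prime_dvd_prime_iff_eq hr (by norm_num)).1 h11
          exact hbb ((key _ hb₁.1.1 hb₁.1.2 hb₁.2).trans (key _ hb₂.1.1 hb₂.1.2 hb₂.2).symm)
    · exfalso
      have hi : ∀ r : ℕ, r.Prime → ∀ i, 1 ≤ i → i + 1 < n → r ∣ 𝔮 ^ i - 1 → r = x := fun r hr i hi hin h =>
        uni r hr ⟨i, hi, by omega, h⟩ (Or.inr ⟨i, hi, hin, h⟩)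
      have hsq : 𝔮 ^ 2 - 1 = (𝔮 + 1) * (𝔮 - 1) := by
        obtain ⟨k, hk⟩ := Nat.exists_eq_add_of_le hq.le
        rw [hk]
        have e1 : 1 + k - 1 = k := by omega
        have e2 : (1 + k) ^ 2 = (1 + k + 1) * k + 1 := by ring
        rw [e1, e2]
        omega
      obtain ⟨a, ha⟩ := eq_pow_of_forall (N := 𝔮 - 1) (x := x) (by omega) fun r hr h =>
        hi r hr 1 le_rfl (by omega) (by rwa [pow_one])
      obtain ⟨b, hb⟩ := eq_pow_of_forall (N := 𝔮 + 1) (x := x) (by omega) fun r hr h =>
        hi r hr 2 (by norm_num) (by omega) (by rw [hsq]; exact h.mul_right _)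
      rcases sq_sub_one_cases (by omega) hxp ha hb with h6 | h6
      · have hx3 : 3 = x := hi 3 Nat.prime_three 2 (by norm_num) (by omega) (by rw [h6]; norm_num)
        rcases Nat.eq_or_lt_of_le (show 4 ≤ n by omega) with h7 | h7
        · subst h7
          have key : ∀ r : ℕ, r.Prime → Facts.IsB F 4 r → ¬ (r.Prime ∧ Facts.IsA F 4 r) → r = 5 := by
            intro r hr h8 h9
            have h10 : r ∣ 3 * 5 := by
              rcases h8 with h | ⟨i, h1, h2, h⟩
              · rw [h6] at h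
                simpa using h
              · obtain rfl | rfl : i = 1 ∨ i = 2 := by omega
                · rw [h6] at h
                  exact absurd (Nat.dvd_one.1 (by simpa using h)) hr.one_lt.ne'
                · rw [h6] at h
                  have h' : r ∣ 3 := by simpa using h
                  exact h'.mul_right _
            rcases hr.dvd_mul.1 h10 with h11 | h11
            · exfalso
              have h12 := (Nat.prime_dvd_prime_iff_eq hr Nat.prime_three).1 h11
              exact h9 ⟨hr, 2, by norm_num, by norm_num, by rw [h6, h12]; norm_num⟩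
            · exact (Nat.prime_dvd_prime_iff_eq hr (by norm_num)).1 h11
          exact hbb ((key _ hb₁.1.1 hb₁.1.2 hb₁.2).trans (key _ hb₂.1.1 hb₂.1.2 hb₂.2).symm)
        · have := hi 7 (by norm_num) 3 (by norm_num) (by omega) (by rw [h6]; norm_num)
          omega
      · have hx2 : 2 = x := hi 2 Nat.prime_two 1 (by norm_num) (by omega) (by rw [h6]; norm_num)
        rcases Nat.eq_or_lt_of_le (show 4 ≤ n by omega) with h7 | h7
        · subst h7
          have key : ∀ r : ℕ, r.Prime → Facts.IsB F 4 r → ¬ (r.Prime ∧ Facts.IsA F 4 r) → r = 5 := by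
            intro r hr h8 h9
            have h10 : r ∣ 2 ^ 4 * 5 := by
              rcases h8 with h | ⟨i, h1, h2, h⟩
              · rw [h6] at h
                simpa using h
              · obtain rfl | rfl : i = 1 ∨ i = 2 := by omega
                · rw [h6] at h
                  have h' : r ∣ 2 := by simpa using h
                  exact (h'.trans (by norm_num)).mul_right _
                · rw [h6] at h
                  have h' : r ∣ 8 := by simpa using h
                  exact (h'.trans (by norm_num)).mul_right _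
            rcases hr.dvd_mul.1 h10 with h11 | h11
            · exfalso
              have h12 := (Nat.prime_dvd_prime_iff_eq hr Nat.prime_two).1 (hr.dvd_of_dvd_pow h11)
              exact h9 ⟨hr, 1, by norm_num, by norm_num, by rw [h6, h12]; norm_num⟩
            · exact (Nat.prime_dvd_prime_iff_eq hr (by norm_num)).1 h11
          exact hbb ((key _ hb₁.1.1 hb₁.1.2 hb₁.2).trans (key _ hb₂.1.1 hb₂.1.2 hb₂.2).symm)
        · have := hi 13 (by norm_num) 3 (by norm_num) (by omega) (by rw [h6]; norm_num)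
          omega

end psl

/-- **`PSL_n(q)`** -/
theorem kite_psl {S : Type u} [Group S] [Finite S] [IsSimpleGroup S] (hL : ¬ IsL2 S) (h : IsPSL S)
    (h5 : 5 ≤ (Nat.card S).primeFactors.card) : Kite S := by
  obtain ⟨F, _, _, n, hn, h4, ⟨e⟩⟩ := H113.PSL.Main.exists_shape h hL
  refine Kite.congr e (kite_psl_aux hn (fun m hm => H113.PSL.Main.hasCusp F m hm) h4 ?_)
  rwa [← Nat.card_congr e.toEquiv]

end Cfsg.Agent.H40.KiteG
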