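import Cfsg.Agent.H40.Kite.U3Sum

/-!
# A character of `PSU(3,16)` (S4919, helper40)

`sixteen` : an irreducible character of degree divisible by `15` and by `17` or `241`.
-/

set_option autoImplicit false
set_option linter.unusedSectionVars false

open Cfsg
open scoped ComplexConjugate

namespace Cfsg.Agent.H40.KiteG

open Cfsg.Agent.Characters.Core Cfsg.Agent.H596.OneFacts Cfsg.Agent.LieClassical.HermBasic
open Cfsg.Agent.LieRecognition.RankOneAbstract Cfsg.Agent.H732.RankOneGG Cfsg.Agent.H664.R1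
  Cfsg.Agent.H664.R1.U3 Cfsg.Agent.H654.Two

section general

variable {F : Type*} [Field F] {σ : F →+* F} [hσ : Fact (∀ x, σ (σ x) = x)]

theorem un_congr {a b a' b' : F} (h : b + σ b + a * σ a = 0) (h' : b' + σ b' + a' * σ a' = 0) (ha : a = a')
    (hb : b = b') : un a b h = un a' b' h' := by
  subst ha hb
  rfl

/-- The root group. -/
theorem exists_unX {x : S σ} (hx : x ∈ XS σ) :
    ∃ (b : F) (h : b + σ b + 0 * σ 0 = 0), (x : PG σ) = pr σ (un 0 b h) := by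
  obtain ⟨x, hxS⟩ := x
  have hx' : x ∈ (Ze σ).map (pr σ) := hx
  obtain ⟨u, ⟨hu, hu0⟩, rfl⟩ := hx'
  obtain ⟨a, b, h, rfl⟩ := exists_un hu
  rw [mat_un] at hu0
  have ha : a = 0 := by simpa using hu0
  subst ha
  exact ⟨b, h, rfl⟩

/-- The root group is central. -/
theorem comm_X {x u : S σ} (hx : x ∈ XS σ) (hu : u ∈ (spS σ).U) : u * x = x * u := by
  obtain ⟨b, h, hxe⟩ := exists_unX hx
  obtain ⟨a', b', h', hue⟩ := exists_unS hu
  apply Subtype.ext
  rw [Subgroup.coe_mul, Subgroup.coe_mul, hxe, hue, ← map_mul, ← map_mul]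
  congr 1
  have e1 : (b - a' * σ 0 + b') + σ (b - a' * σ 0 + b') + (a' + 0) * σ (a' + 0) = 0 := by
    rw [map_zero] at h ⊢
    simp only [mul_zero, sub_zero, add_zero, map_add] at h ⊢
    linear_combination h + h'
  have e2 : (b' - 0 * σ a' + b) + σ (b' - 0 * σ a' + b) + (0 + a') * σ (0 + a') = 0 := by
    simp only [zero_mul, sub_zero, zero_add, add_zero, map_add] at h ⊢
    linear_combination h + h'
  rw [un_mul a' b' 0 b h' h e1, un_mul 0 b a' b' h h' e2]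
  refine un_congr _ _ (by ring) ?_
  rw [map_zero]
  ring

theorem notMem_X {u : S σ} {a b : F} {h : b + σ b + a * σ a = 0} (hu : (u : PG σ) = pr σ (un a b h)) :
    u ∈ XS σ ↔ a = 0 := by
  constructor
  · intro hx
    obtain ⟨b', h', e⟩ := exists_unX hx
    rw [hu] at e
    exact (un_inj (pr_inj (un_mem _ _ _) (un_mem _ _ _) e)).1
  · rintro rfl
    show (u : PG σ) ∈ (Ze σ).map (pr σ)
    rw [hu]
    refine ⟨_, ⟨un_mem _ _ _, ?_⟩, rfl⟩
    rw [mat_un]
    simp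

/-- Elements with the same first coordinate. -/
theorem inv_mul_mem_X {u v : S σ} {a b b' : F} {h : b + σ b + a * σ a = 0} {h' : b' + σ b' + a * σ a = 0}
    (hu : (u : PG σ) = pr σ (un a b h)) (hv : (v : PG σ) = pr σ (un a b' h')) : v⁻¹ * u ∈ XS σ := by
  show ((v⁻¹ * u : S σ) : PG σ) ∈ (Ze σ).map (pr σ)
  rw [Subgroup.coe_mul, Subgroup.coe_inv, hu, hv, ← map_inv, ← map_mul]
  have h1 := mem_Ze_of (σ := σ) (A := un a b' h') (B := 1) (C := un a b h) (un_mem _ _ _) (Un σ).one_mem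
    (un_mem _ _ _) (by rw [mat_un, mat_un, mat_one]; simp)
  rw [inv_one, mul_one] at h1
  exact ⟨_, h1, rfl⟩

end general

section finite

variable {F : Type*} [Field F] [Fintype F] {σ : F →+* F} [hσ : Fact (∀ x, σ (σ x) = x)]

theorem XS_conj {t : S σ} (ht : t ∈ (spS σ).T) {x : S σ} (hx : x ∈ XS σ) : t * x * t⁻¹ ∈ XS σ :=
  hXT (σ := σ) (t := (t : PG σ)) ht (x := (x : PG σ)) hx

theorem htrS (hF : Fintype.card F = 16 ^ 2) (hs : ∀ x, σ x = x ^ 16) {u : S σ} (hu : u ∈ (spS σ).U)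
    (huX : u ∉ XS σ) {v : S σ} (hv : v ∈ (spS σ).U) (hvX : v ∉ XS σ) :
    ∃ t ∈ (spS σ).T, ∃ x ∈ XS σ, t * u * t⁻¹ = v * x := by
  obtain ⟨a, b, h, hue⟩ := exists_unS hu
  obtain ⟨a', b', h', hve⟩ := exists_unS hv
  have ha : a ≠ 0 := fun e => huX ((notMem_X hue).2 e)
  have ha' : a' ≠ 0 := fun e => hvX ((notMem_X hve).2 e)
  have hcop : (Nat.card Fˣ).Coprime 14 := by
    rw [card_units' (q := 16) hF]
    decide
  obtain ⟨t, ht⟩ : ∃ t : Fˣ, t ^ 14 = Units.mk0 a ha / Units.mk0 a' ha' := (powCoprime hcop).surjective _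
  obtain ⟨h1, hc⟩ := ph_conj t h hue
  have ht' : (t : F) ^ 14 = a / a' := by
    have := congrArg Units.val ht
    simpa using this
  have e1 : (t : F) * σ (σ t / t) * a = a' := by
    rw [weight, hs]
    have h0 := t.ne_zero
    have h2 : (t : F) ^ 2 / (t : F) ^ 16 = ((t : F) ^ 14)⁻¹ := by
      rw [eq_comm, inv_eq_one_div, div_eq_div_iff (pow_ne_zero _ h0) (pow_ne_zero _ h0)]
      ring
    rw [h2, ht', inv_div]
    field_simp
  have h3 : (t : F) * σ t * b + σ ((t : F) * σ t * b) + a' * σ a' = 0 := by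
    rw [e1] at h1
    exact h1
  have hc' : ((ph σ t * u * (ph σ t)⁻¹ : S σ) : PG σ) = pr σ (un a' ((t : F) * σ t * b) h3) := by
    rw [hc]
    congr 1
    exact un_congr _ _ e1 rfl
  refine ⟨ph σ t, ph_mem_T t, v⁻¹ * (ph σ t * u * (ph σ t)⁻¹), inv_mul_mem_X hc' hve, ?_⟩
  group

/-- an element of `U` outside of `X` -/
theorem exists_out (hF : Fintype.card F = 16 ^ 2) (hs : ∀ x, σ x = x ^ 16) :
    ∃ u ∈ (spS σ).U, u ∉ XS σ := by
  obtain ⟨b, hb⟩ := exists_snd (σ := σ) hF hs 1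
  have hu₁ : pr σ (un 1 b hb) ∈ S σ := U_le_S ⟨_, un_mem _ _ _, rfl⟩
  refine ⟨⟨_, hu₁⟩, ⟨_, un_mem _ _ _, rfl⟩, fun h => ?_⟩
  exact one_ne_zero ((notMem_X (u := ⟨_, hu₁⟩) rfl).1 h)

/-- The torus element of order `15`. -/
theorem exists_fifteen (hF : Fintype.card F = 16 ^ 2) (hs : ∀ x, σ x = x ^ 16) :
    ∃ A : Subgroup (S σ), A ≤ (spS σ).B ∧ Nat.card A = 15 ∧
      ∀ x ∈ A, x ≠ 1 → ∀ u ∈ (spS σ).U, x * u = u * x → u = 1 := by
  obtain ⟨γ, hγ⟩ := IsCyclic.exists_generator (α := Fˣ)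
  have hor : orderOf γ = 255 := by
    rw [orderOf_eq_card_of_forall_mem_zpowers hγ, card_units' (q := 16) hF]
  obtain ⟨t, ht⟩ : ∃ t : Fˣ, orderOf t = 15 := ⟨γ ^ 17, by rw [orderOf_pow' γ (by norm_num), hor]; norm_num⟩
  have htq : ∀ j : ℤ, (t ^ j) ^ 16 = t ^ j := by
    intro j
    have h5 : t ^ 15 = 1 := by rw [← ht, pow_orderOf_eq_one]
    have h7 : (t ^ j) ^ 16 = (t ^ 16) ^ j := by
      rw [← zpow_natCast, ← zpow_natCast, ← zpow_mul, ← zpow_mul, mul_comm]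
    have h6 : t ^ 16 = t := by rw [pow_succ, h5, one_mul]
    rw [h7, h6]
  have hinj : ∀ j : ℤ, ph σ (t ^ j) = 1 → t ^ j = 1 := fun j h => one_of_fixed (fixed_of_pow hs (htq j)) h
  refine ⟨Subgroup.zpowers (ph σ t), ?_, ?_, ?_⟩
  · rw [Subgroup.zpowers_le]
    exact (spS σ).TB (ph_mem_T t)
  · rw [Nat.card_zpowers, ← ht]
    refine Nat.dvd_antisymm (orderOf_map_dvd _ _) ?_
    rw [orderOf_dvd_iff_pow_eq_one]
    have h1 := hinj (orderOf (ph σ t)) (by rw [zpow_natCast, map_pow, pow_orderOf_eq_one])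
    rwa [zpow_natCast] at h1
  · intro x hx hx1 u hu hxu
    obtain ⟨j, rfl⟩ := Subgroup.mem_zpowers_iff.1 hx
    rw [← map_zpow] at hx1 hxu
    have hfix := fixed_of_pow (σ := σ) hs (htq j)
    have hj1 : t ^ j ≠ 1 := by
      intro h; rw [h, map_one] at hx1; exact hx1 rfl
    refine regular ?_ ?_ hu hxu
    · rw [hfix, pow_two]
      intro h
      apply hj1
      apply Units.ext
      exact mul_left_cancel₀ (t ^ j).ne_zero (h.trans (mul_one _).symm)
    · rw [hfix]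
      intro h
      have h7 : (t ^ j) ^ 2 = 1 := by
        apply Units.ext
        rw [pow_two]
        exact h
      have h8 : (t ^ j) ^ 15 = 1 := by
        rw [← zpow_natCast, ← zpow_mul, mul_comm, zpow_mul, zpow_natCast, ← ht, pow_orderOf_eq_one, one_zpow]
      apply hj1
      have h9 : t ^ j = (t ^ j) ^ 15 * ((t ^ j) ^ 2)⁻¹ ^ 7 := by
        rw [_root_.inv_pow, ← pow_mul, show 2 * 7 = 14 by norm_num, eq_mul_inv_iff_mul_eq, ← pow_succ']
      rw [h9, h8, h7, inv_one, one_pow, one_mul]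

/-- arithmetic -/
theorem arith {n k : ℕ} {e c : ℤ} (hdvd : 15 * n ∣ 2 ^ 12 * 15 * 17 ^ 2 * 241) (h17 : ¬ 17 ∣ n) (h241 : ¬ 241 ∣ n)
    (hk : ¬ 2 ∣ k) (hc : ((15 * n : ℕ) : ℤ) ∣ k * e) (hle : |e| ≤ ((15 * n : ℕ) : ℤ))
    (h : (n : ℤ) + e = -(17 * c)) : c = 0 := by
  have h1 : n ∣ 2 ^ 12 * 17 ^ 2 * 241 := by
    have h2 : 15 * n ∣ 15 * (2 ^ 12 * 17 ^ 2 * 241) := by
      have e0 : 15 * (2 ^ 12 * 17 ^ 2 * 241) = 2 ^ 12 * 15 * 17 ^ 2 * 241 := by norm_num
      rw [e0]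
      exact hdvd
    exact Nat.dvd_of_mul_dvd_mul_left (by norm_num) h2
  have c17 : Nat.Coprime n 17 := ((Nat.Prime.coprime_iff_not_dvd (by norm_num)).2 h17).symm
  have c241 : Nat.Coprime n 241 := ((Nat.Prime.coprime_iff_not_dvd (by norm_num)).2 h241).symm
  have h2 : n ∣ 2 ^ 12 := (c17.pow_right 2).dvd_of_dvd_mul_right (c241.dvd_of_dvd_mul_right h1)
  obtain ⟨j, -, rfl⟩ := (Nat.dvd_prime_pow Nat.prime_two).1 h2
  have h3 : ((2 ^ j : ℕ) : ℤ) ∣ k * e := by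
    refine Dvd.dvd.trans ?_ hc
    exact_mod_cast Dvd.intro_left 15 rfl
  have hcop : IsCoprime ((2 ^ j : ℕ) : ℤ) (k : ℤ) := by
    rw [Nat.isCoprime_iff_coprime]
    exact Nat.Coprime.pow_left _ ((Nat.Prime.coprime_iff_not_dvd Nat.prime_two).2 hk)
  obtain ⟨d, rfl⟩ := hcop.dvd_of_dvd_mul_left h3
  have hpos : (0 : ℤ) < ((2 ^ j : ℕ) : ℤ) := by positivity
  have h4 : |d| ≤ 15 := by
    rw [abs_mul, abs_of_pos hpos] at hle
    have h5 : ((2 ^ j : ℕ) : ℤ) * |d| ≤ ((2 ^ j : ℕ) : ℤ) * 15 := by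
      refine hle.trans (le_of_eq ?_)
      push_cast
      ring
    exact le_of_mul_le_mul_left h5 hpos
  have h5 : ((2 ^ j : ℕ) : ℤ) * (1 + d) = -(17 * c) := by rw [← h]; ring
  have h6 : (17 : ℤ) ∣ ((2 ^ j : ℕ) : ℤ) * (1 + d) := ⟨-c, by rw [h5]; ring⟩
  have h7 : IsCoprime (17 : ℤ) ((2 ^ j : ℕ) : ℤ) := by
    have : Nat.Coprime 17 (2 ^ j) := Nat.Coprime.pow_right _ (by norm_num)
    exact_mod_cast Nat.isCoprime_iff_coprime.2 this
  obtain ⟨m, hm⟩ := h7.dvd_of_dvd_mul_left h6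
  have h8 := abs_le.1 h4
  have h9 : m = 0 := by omega
  rw [h9, mul_zero] at hm
  rw [hm, mul_zero] at h5
  omega

/-- **The character.** -/
theorem sixteen (hF : Fintype.card F = 16 ^ 2) (hs : ∀ x, σ x = x ^ 16) :
    ∃ χ : IrrCharacter (S σ), 15 ∣ charDegree (χ : S σ → ℂ) ∧
      (17 ∣ charDegree (χ : S σ → ℂ) ∨ 241 ∣ charDegree (χ : S σ → ℂ)) := by
  classical
  have : Finite (PG σ) := inferInstance
  have := Fintype.ofFinite (PG σ)
  have := Fintype.ofFinite (S σ)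
  have := Fintype.ofFinite (spS σ).U
  have := Fintype.ofFinite (spS σ).B
  have := Fintype.ofFinite (XS σ)
  have : Finite (IrrCharacter (S σ)) := Characters.Core.finite_irr
  have := Fintype.ofFinite (IrrCharacter (S σ))
  have : Fact (Nat.Prime 2) := ⟨Nat.prime_two⟩
  have D := data_of_split (spS σ)
  have hP := isP_U (σ := σ) hF hs (r := 2) (k := 4) (by norm_num)
  have hi := index_U (σ := σ) hF hs Nat.prime_two (k := 4) (by norm_num) (by norm_num)
  have hU1 := U_ne_bot (σ := σ) hF (by norm_num) hs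
  have hnt : Nontrivial (spS σ).U := (Subgroup.nontrivial_iff_ne_bot _).2 hU1
  obtain ⟨ψ, hψ⟩ := H670.PSing.exists_linear_ne_one hP
  obtain ⟨χ, h3, h4⟩ := exists_cusp D (hab_of_split (spS σ)) ψ hψ (inertia hF hs hψ) (spS σ).card_B
  obtain ⟨A, hAB, hA, hreg⟩ := exists_fifteen (σ := σ) hF hs
  have h15 : 15 ∣ charDegree (χ : S σ → ℂ) := by
    have := card_dvd D h3 A hAB hreg
    rwa [hA] at this
  refine ⟨χ, h15, ?_⟩
  by_contra hcon
  push Not at hcon
  obtain ⟨h17, h241⟩ := hcon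
  have hχc := isIrr_isCharacter χ.2
  have hd := Cfsg.Agent.Blocks.Basic.irr_one_eq_charDegree χ.2
  -- the sum over `X`
  obtain ⟨m, hm⟩ := sum_eq_card_mul (XS σ) hχc
  have hcX : Nat.card (XS σ) = 16 := card_XS hF hs
  have hcU : Nat.card (spS σ).U = 16 ^ 3 := card_US hF hs
  have hm0 : m ≠ 0 := by
    rintro rfl
    apply h4
    refine mu_of_noFix (spS σ) XS_le (hlin hF hs) ?_ ψ
    rw [noFix_iff, hm, Nat.cast_zero, mul_zero]
  obtain ⟨z, hz1⟩ : ∃ z : XS σ, z ≠ 1 := by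
    have h5 : 1 < Nat.card (XS σ) := by rw [hcX]; norm_num
    have := Finite.one_lt_card_iff_nontrivial.1 h5
    exact exists_ne 1
  have hz1' : (z : S σ) ≠ 1 := fun h => hz1 (Subtype.ext h)
  have hval : ∀ x : XS σ, x ≠ 1 → (χ : S σ → ℂ) x = (χ : S σ → ℂ) z := by
    intro x hx
    obtain ⟨g, hg⟩ := fused hF hs z z.2 hz1' x x.2 fun h => hx (Subtype.ext h)
    rw [← hg]
    exact isIrr_isClassFunction χ.2 _ _
  have hsum : ∑ x : XS σ, (χ : S σ → ℂ) x = charDegree (χ : S σ → ℂ) + 15 * (χ : S σ → ℂ) z := by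
    rw [← Finset.add_sum_erase _ _ (Finset.mem_univ (1 : XS σ)), Subgroup.coe_one, hd,
      Finset.sum_congr rfl (g := fun _ => (χ : S σ → ℂ) z) fun x hx => hval x (Finset.ne_of_mem_erase hx),
      Finset.sum_const, Finset.card_erase_of_mem (Finset.mem_univ _), Finset.card_univ, ← Nat.card_eq_fintype_card,
      hcX, nsmul_eq_mul]
    norm_num
  rw [hsum, hcX] at hm
  -- the value at `z` is an integer
  obtain ⟨e, he⟩ : ∃ e : ℤ, (χ : S σ → ℂ) z = e := by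
    have h5 : IsIntegral ℤ ((χ : S σ → ℂ) z) := Characters.GaloisBasic.isIntegral_apply hχc _
    refine (h5.exists_int_iff_exists_rat).1 ⟨(16 * m - charDegree (χ : S σ → ℂ)) / 15, ?_⟩
    push_cast
    linear_combination (1 / 15 : ℂ) * hm
  -- the coset sum
  obtain ⟨u₀, hu₀, hu₀X⟩ := exists_out (σ := σ) hF hs
  have hU0 : ∑ u : (spS σ).U, (χ : S σ → ℂ) u = 0 := sum_eq_zero_of_mu h3
  have hX := sum_X (spS σ) (XS σ) XS_le (fun t ht x hx => XS_conj ht hx)
    (fun u hu huX v hv hvX => htrS hF hs hu huX hv hvX) hu₀ hu₀X (isIrr_isClassFunction χ.2) hU0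
  rw [hsum, hcX, hcU, hm] at hX
  obtain ⟨c, hc⟩ : ∃ c : ℤ, ∑ x : XS σ, (χ : S σ → ℂ) (u₀ * x) = c := by
    have h5 : IsIntegral ℤ (∑ x : XS σ, (χ : S σ → ℂ) (u₀ * x)) :=
      IsIntegral.sum _ fun x _ => Characters.GaloisBasic.isIntegral_apply hχc _
    refine (h5.exists_int_iff_exists_rat).1 ⟨-(16 * m) / 255, ?_⟩
    push_cast at hX ⊢
    linear_combination (1 / 4080 : ℂ) * hX
  rw [hc] at hX
  obtain ⟨n, hn⟩ := h15
  rw [hn, he] at hm
  have hmc : (16 * m : ℤ) = -(255 * c) := by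
    have h5 : ((16 * m : ℤ) : ℂ) = ((-(255 * c) : ℤ) : ℂ) := by
      push_cast at hX ⊢
      linear_combination (1 / 16 : ℂ) * hX
    exact_mod_cast h5
  have hne : (n : ℤ) + e = -(17 * c) := by
    have h5 : (15 * n : ℤ) + 15 * e = 16 * m := by exact_mod_cast hm
    omega
  have hc0 : c = 0 := by
    refine arith (n := n) (k := (Subgroup.centralizer ({(z : S σ)} : Set (S σ))).index) (e := e) ?_ ?_ ?_ ?_ ?_ ?_ hne
    · rw [← hn]
      have h5 : charDegree (χ : S σ → ℂ) ∣ Nat.card (S σ) :=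
        Cfsg.Agent.H681.DegBasic.dvd_card ⟨χ, rfl⟩
      refine h5.trans ((card_S hF hs).trans ?_)
      norm_num
    · intro h; apply h17; rw [hn]; exact h.mul_left _
    · intro h; apply h241; rw [hn]; exact h.mul_left _
    · intro h
      apply hi
      refine h.trans (Subgroup.index_dvd_of_le ?_)
      intro u hu
      rw [Subgroup.mem_centralizer_iff]
      rintro x rfl
      exact (comm_X z.2 hu).symm
    · have := dvd_index_mul χ (z : S σ) he
      rwa [hn] at this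
    · have := abs_le_degree χ (z : S σ) he
      rwa [hn] at this
  rw [hc0] at hmc
  omega

end finite

end Cfsg.Agent.H40.KiteG
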