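import Cfsg.Agent.H654.Two.U3Row
import Cfsg.Agent.H732.RankOneDeg
import Cfsg.Agent.Characters.CentralCharacter

/-!
# Sums over the root group (S4919, helper40)

`sum_X` : a class function whose sum over `U` vanishes, `T` transitive on `U ∖ X` modulo `X`.
-/

set_option autoImplicit false
set_option linter.unusedSectionVars false

open Cfsg
open scoped ComplexConjugate

namespace Cfsg.Agent.H40.KiteG

open Cfsg.Agent.H664.R1 Cfsg.Agent.Characters.Core

universe u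

variable {G : Type u} [Group G]

theorem sum_X (D : Split G) [Fintype D.U] (X : Subgroup G) [Fintype X] (hXU : X ≤ D.U)
    (hXT : ∀ t ∈ D.T, ∀ x ∈ X, t * x * t⁻¹ ∈ X)
    (htr : ∀ u ∈ D.U, u ∉ X → ∀ v ∈ D.U, v ∉ X → ∃ t ∈ D.T, ∃ x ∈ X, t * u * t⁻¹ = v * x)
    {u₀ : G} (hu₀ : u₀ ∈ D.U) (hu₀X : u₀ ∉ X)
    {χ : G → ℂ} (hχ : IsClassFunction G χ) (h2 : ∑ u : D.U, χ u = 0) :
    (Nat.card X : ℂ) * ∑ x : X, χ x = -(((Nat.card D.U : ℂ) - Nat.card X) * ∑ x : X, χ (u₀ * x)) := by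
  classical
  set fh : G → ℂ := fun u => ∑ x : X, χ (u * x) with hfh
  have hfh_mem : ∀ u ∈ X, fh u = fh 1 := by
    intro u hu
    simp only [hfh]
    refine Fintype.sum_equiv (Equiv.mulLeft (⟨u, hu⟩ : X)) _ _ fun x => ?_
    rw [one_mul]
    rfl
  have hfh_right : ∀ u, ∀ y ∈ X, fh (u * y) = fh u := by
    intro u y hy
    simp only [hfh]
    refine Fintype.sum_equiv (Equiv.mulLeft (⟨y, hy⟩ : X)) _ _ fun x => ?_
    rw [mul_assoc]
    rfl
  have hfh_conj : ∀ u, ∀ t ∈ D.T, fh (t * u * t⁻¹) = fh u := by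
    intro u t ht
    simp only [hfh]
    have hmem : ∀ x : X, t⁻¹ * (x : G) * t ∈ X := by
      intro x
      have := hXT t⁻¹ (D.T.inv_mem ht) x x.2
      rwa [inv_inv] at this
    have hmem' : ∀ x : X, t * (x : G) * t⁻¹ ∈ X := fun x => hXT t ht x x.2
    refine Fintype.sum_equiv
      (⟨fun x => ⟨t⁻¹ * x * t, hmem x⟩, fun x => ⟨t * x * t⁻¹, hmem' x⟩, fun x => Subtype.ext (by
        show t * (t⁻¹ * (x : G) * t) * t⁻¹ = x
        group), fun x => Subtype.ext (by
        show t⁻¹ * (t * (x : G) * t⁻¹) * t = x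
        group)⟩ : X ≃ X) _ _ fun x => ?_
    show χ (t * u * t⁻¹ * x) = χ (u * (t⁻¹ * x * t))
    rw [← hχ (u * (t⁻¹ * x * t)) t]
    congr 1
    group
  have hconst : ∀ u : D.U, (u : G) ∉ X → fh u = fh u₀ := by
    intro u hu
    obtain ⟨t, ht, x, hx, h⟩ := htr u₀ hu₀ hu₀X u u.2 hu
    rw [← hfh_conj u₀ t ht, h, hfh_right _ x hx]
  have hval : ∀ u : D.U, fh u = fh u₀ + (if (u : G) ∈ X then fh 1 - fh u₀ else 0) := by
    intro u
    split_ifs with h
    · rw [hfh_mem u h]; ring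
    · rw [hconst u h, add_zero]
  have h3 : ∀ x : X, ∑ u : D.U, χ (u * x) = 0 := by
    intro x
    rw [← h2]
    exact Fintype.sum_equiv (Equiv.mulRight (⟨x, hXU x.2⟩ : D.U)) _ _ fun u => rfl
  have h4 : ∑ u : D.U, fh u = 0 := by
    simp only [hfh]
    rw [Finset.sum_comm]
    exact Finset.sum_eq_zero fun x _ => h3 x
  have h6 : ∑ u : D.U, (if (u : G) ∈ X then fh 1 - fh u₀ else 0) =
      (fh 1 - fh u₀) * Nat.card X := by
    rw [← Finset.sum_filter, Finset.sum_const, nsmul_eq_mul, mul_comm]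
    congr 2
    rw [Nat.card_eq_fintype_card, ← Finset.card_univ]
    refine Finset.card_bij' (fun u hu => (⟨u, (Finset.mem_filter.1 hu).2⟩ : X))
      (fun x _ => ⟨x, hXU x.2⟩) ?_ ?_ ?_ ?_
    · intro u _
      exact Finset.mem_univ _
    · intro x _
      exact Finset.mem_filter.2 ⟨Finset.mem_univ _, x.2⟩
    · intro u _
      rfl
    · intro x _
      rfl
  have h5 : ∑ u : D.U, fh u = Nat.card D.U * fh u₀ + (fh 1 - fh u₀) * Nat.card X := by
    rw [Finset.sum_congr rfl fun u _ => hval u, Finset.sum_add_distrib, h6, Finset.sum_const, nsmul_eq_mul,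
      Finset.card_univ, ← Nat.card_eq_fintype_card]
  rw [h5] at h4
  have h7 : ∑ x : X, χ x = fh 1 := by
    simp only [hfh, one_mul]
  rw [h7]
  change (Nat.card X : ℂ) * fh 1 = -(((Nat.card D.U : ℂ) - Nat.card X) * fh u₀)
  linear_combination h4

/-- The sum over a subgroup of a character. -/
theorem sum_eq_card_mul [Finite G] (X : Subgroup G) [Fintype X] {χ : G → ℂ} (hχ : IsCharacter G χ) :
    ∃ m : ℕ, ∑ x : X, χ x = Nat.card X * m := by
  obtain ⟨m, hm⟩ := classInner_isNat (isCharacter_comp X.subtype hχ) isCharacter_one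
  rw [classInner_def] at hm
  refine ⟨m, ?_⟩
  have h0 : (Nat.card X : ℂ) ≠ 0 := card_ne_zero_complex
  rw [inv_mul_eq_iff_eq_mul₀ h0] at hm
  rw [← hm]
  refine Finset.sum_congr rfl fun x _ => ?_
  simp

/-- The central character. -/
theorem dvd_index_mul [Finite G] (χ : IrrCharacter G) (g : G) {e : ℤ} (he : (χ : G → ℂ) g = e) :
    (charDegree (χ : G → ℂ) : ℤ) ∣ (Subgroup.centralizer ({g} : Set G)).index * e := by
  classical
  obtain ⟨n, ρ, hρ, hχ⟩ := χ.2
  have h1 := Characters.CentralCharacter.isIntegral_index_mul_character_div ρ g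
  have h2 : (charDegree (χ : G → ℂ) : ℂ) = (Module.finrank ℂ (Fin n → ℂ) : ℂ) := by
    rw [← Cfsg.Agent.Blocks.Basic.irr_one_eq_charDegree χ.2, ← hχ]
    exact Representation.char_one ρ
  have h3 : (χ : G → ℂ) g = ρ.character g := by rw [← hχ]
  rw [← h3, ← h2, he] at h1
  have hd0 : (charDegree (χ : G → ℂ) : ℂ) ≠ 0 := by
    have := Cfsg.Agent.Blocks.Basic.charDegree_pos χ.2
    exact_mod_cast this.ne'
  obtain ⟨k, hk⟩ := (h1.exists_int_iff_exists_rat).1
    ⟨(((Subgroup.centralizer ({g} : Set G)).index : ℚ) * e / (charDegree (χ : G → ℂ) : ℚ)), by push_cast; ring⟩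
  refine ⟨k, ?_⟩
  rw [div_eq_iff hd0] at hk
  have h4 : (((Subgroup.centralizer ({g} : Set G)).index * e : ℤ) : ℂ) = ((charDegree (χ : G → ℂ) * k : ℤ) : ℂ) := by
    push_cast
    rw [hk]
    ring
  exact_mod_cast h4

/-- The absolute value. -/
theorem abs_le_degree [Finite G] (χ : IrrCharacter G) (g : G) {e : ℤ} (he : (χ : G → ℂ) g = e) :
    |e| ≤ (charDegree (χ : G → ℂ) : ℤ) := by
  obtain ⟨n, ρ, hρ, hχ⟩ := χ.2
  have h1 := Characters.Values.norm_character_le ρ g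
  have h2 : (charDegree (χ : G → ℂ) : ℂ) = (Module.finrank ℂ (Fin n → ℂ) : ℂ) := by
    rw [← Cfsg.Agent.Blocks.Basic.irr_one_eq_charDegree χ.2, ← hχ]
    exact Representation.char_one ρ
  have h3 : (χ : G → ℂ) g = ρ.character g := by rw [← hχ]
  rw [← h3, he] at h1
  have h4 : charDegree (χ : G → ℂ) = Module.finrank ℂ (Fin n → ℂ) := by exact_mod_cast h2
  rw [h4]
  have h5 : ‖((e : ℤ) : ℂ)‖ = ((|e| : ℤ) : ℝ) := by
    rw [Complex.norm_intCast, Int.cast_abs]
  rw [h5] at h1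
  exact_mod_cast h1

end Cfsg.Agent.H40.KiteG
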